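import Cfsg.Agent.H151.PQR.NM
import Cfsg.Agent.H982.TWModel

/-!
# `SL_m(q²)` in `PSU_{2m}(q)` (helper151, for S3988)
-/

set_option autoImplicit false
set_option linter.unusedSectionVars false

namespace Cfsg.Agent.H151.PQR

open Cfsg Matrix
open Cfsg.Agent.H948.UBase Cfsg.Agent.H948.UProd Cfsg.Agent.H948.UTorus
open Cfsg.Agent.LieClassical.HermBasic
open Cfsg.Agent.ClassicalGeometry.PSUAutBasic (pr pr_eq_one_iff)
open Cfsg.Agent.H562.PQR (NotMin)

variable {F : Type} [Field F] [Fintype F] {m q : ℕ}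

/-- conjugate inverse transpose -/
def ct (hF : Fintype.card F = q ^ 2) : SpecialLinearGroup (Fin m) F →* Matrix (Fin m) (Fin m) F where
  toFun A := ((A⁻¹).1.map (cj hF))ᵀ
  map_one' := by
    rw [inv_one]
    show ((1 : Matrix (Fin m) (Fin m) F).map (cj hF))ᵀ = 1
    rw [Matrix.map_one _ (map_zero _) (map_one _), Matrix.transpose_one]
  map_mul' A B := by
    rw [_root_.mul_inv_rev]
    show ((B⁻¹.1 * A⁻¹.1).map (cj hF))ᵀ = _
    rw [Matrix.map_mul, Matrix.transpose_mul]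

theorem map_cj_cj (hF : Fintype.card F = q ^ 2) (M : Matrix (Fin m) (Fin m) F) : (M.map (cj hF)).map (cj hF) = M := by
  ext i j
  rw [Matrix.map_apply, Matrix.map_apply, cj_cj]

theorem transpose_mul_ct (hF : Fintype.card F = q ^ 2) (A : SpecialLinearGroup (Fin m) F) :
    (A.1.map (cj hF))ᵀ * ct hF A = 1 := by
  show (A.1.map (cj hF))ᵀ * ((A⁻¹).1.map (cj hF))ᵀ = 1
  rw [← Matrix.transpose_mul, ← Matrix.map_mul]
  have h : (A⁻¹).1 * A.1 = 1 := congrArg Subtype.val (inv_mul_cancel A)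
  rw [h, Matrix.map_one _ (map_zero _) (map_one _), Matrix.transpose_one]

theorem ct_mul (hF : Fintype.card F = q ^ 2) (A : SpecialLinearGroup (Fin m) F) :
    ((ct hF A).map (cj hF))ᵀ * A.1 = 1 := by
  show ((((A⁻¹).1.map (cj hF))ᵀ).map (cj hF))ᵀ * A.1 = 1
  rw [Matrix.transpose_map, Matrix.transpose_transpose, map_cj_cj]
  exact congrArg Subtype.val (inv_mul_cancel A)

/-- the form -/
def evB (m : ℕ) (hF : Fintype.card F = q ^ 2) : ((Fin m → F) × (Fin m → F)) →ₛₗ[cj hF] ((Fin m → F) × (Fin m → F)) →ₗ[F] F :=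
  LinearMap.mk₂'ₛₗ (cj hF) (RingHom.id F)
    (fun x y => (cj hF ∘ x.1) ⬝ᵥ y.2 + (cj hF ∘ x.2) ⬝ᵥ y.1)
    (fun x y z => by
      have h : ∀ u v : Fin m → F, cj hF ∘ (u + v) = cj hF ∘ u + cj hF ∘ v := fun u v => by
        funext i; exact map_add _ _ _
      rw [Prod.fst_add, Prod.snd_add, h, h, add_dotProduct, add_dotProduct]; abel)
    (fun c x y => by
      have h : ∀ u : Fin m → F, cj hF ∘ (c • u) = cj hF c • (cj hF ∘ u) := fun u => by
        funext i; exact map_mul _ _ _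
      rw [Prod.smul_fst, Prod.smul_snd, h, h, smul_dotProduct, smul_dotProduct, smul_add])
    (fun x y z => by rw [Prod.fst_add, Prod.snd_add, dotProduct_add, dotProduct_add]; abel)
    (fun c x y => by rw [Prod.smul_fst, Prod.smul_snd, dotProduct_smul, dotProduct_smul, ← smul_add]; rfl)

theorem evB_apply (hF : Fintype.card F = q ^ 2) (x y : (Fin m → F) × (Fin m → F)) :
    evB m hF x y = (cj hF ∘ x.1) ⬝ᵥ y.2 + (cj hF ∘ x.2) ⬝ᵥ y.1 := rfl

theorem isHerm_evB (hF : Fintype.card F = q ^ 2) : IsHerm hF (evB m hF) where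
  symm := ⟨fun x y => by
    have h : ∀ u v : Fin m → F, cj hF ((cj hF ∘ u) ⬝ᵥ v) = (cj hF ∘ v) ⬝ᵥ u := by
      intro u v
      rw [dotProduct_comm]
      unfold dotProduct
      rw [map_sum]
      refine Finset.sum_congr rfl fun i _ => ?_
      rw [map_mul]
      show cj hF (v i) * cj hF (cj hF (u i)) = _
      rw [cj_cj]
      rfl
    rw [evB_apply, evB_apply, map_add, h, h, add_comm]⟩
  sep := fun x h => by
    have h0 : ∀ u : Fin m → F, (∀ i, cj hF (u i) = 0) → u = 0 := fun u hu => by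
      funext i
      have h1 := congrArg (cj hF) (hu i)
      rwa [cj_cj, map_zero] at h1
    apply Prod.ext
    · refine h0 _ fun i => ?_
      have h1 := h (0, Pi.single i 1)
      rw [evB_apply] at h1
      simpa using h1
    · refine h0 _ fun i => ?_
      have h1 := h (Pi.single i 1, 0)
      rw [evB_apply] at h1
      simpa using h1

/-- the representation of `SL_m(q²)` -/
noncomputable def evρ (m : ℕ) (hF : Fintype.card F = q ^ 2) :
    SpecialLinearGroup (Fin m) F →* Module.End F ((Fin m → F) × (Fin m → F)) where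
  toFun A := (Matrix.toLin' A.1).prodMap (Matrix.toLin' (ct hF A))
  map_one' := by
    rw [map_one, Matrix.toLin'_one]
    show (Matrix.toLin' (1 : Matrix (Fin m) (Fin m) F)).prodMap _ = _
    rw [Matrix.toLin'_one]
    exact LinearMap.prodMap_id
  map_mul' A B := by
    rw [map_mul, Matrix.toLin'_mul]
    show (Matrix.toLin' (A.1 * B.1)).prodMap _ = _
    rw [Matrix.toLin'_mul]
    exact (LinearMap.prodMap_comp _ _ _ _).symm

theorem evρ_apply (hF : Fintype.card F = q ^ 2) (A : SpecialLinearGroup (Fin m) F) (x : (Fin m → F) × (Fin m → F)) :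
    evρ m hF A x = (A.1 *ᵥ x.1, ct hF A *ᵥ x.2) := rfl

theorem cj_comp_mulVec (hF : Fintype.card F = q ^ 2) (M : Matrix (Fin m) (Fin m) F) (v : Fin m → F) :
    cj hF ∘ (M *ᵥ v) = (M.map (cj hF)) *ᵥ (cj hF ∘ v) := by
  funext i
  exact RingHom.map_mulVec (cj hF) M v i

theorem iso_evρ (hF : Fintype.card F = q ^ 2) (A : SpecialLinearGroup (Fin m) F) : Iso (evB m hF) (evρ m hF A) := by
  intro x y
  rw [evB_apply, evB_apply, evρ_apply, evρ_apply]
  show (cj hF ∘ (A.1 *ᵥ x.1)) ⬝ᵥ (ct hF A *ᵥ y.2) + (cj hF ∘ (ct hF A *ᵥ x.2)) ⬝ᵥ (A.1 *ᵥ y.1) = _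
  rw [cj_comp_mulVec, cj_comp_mulVec, Matrix.dotProduct_mulVec, Matrix.vecMul_mulVec, transpose_mul_ct,
    Matrix.dotProduct_mulVec, Matrix.vecMul_mulVec, ct_mul, Matrix.vecMul_one, Matrix.vecMul_one]

theorem evρ_injective (hF : Fintype.card F = q ^ 2) : Function.Injective (evρ m hF) := by
  intro A B h
  apply Subtype.ext
  apply Matrix.toLin'.injective
  refine LinearMap.ext fun v => ?_
  have h1 := congrArg Prod.fst (LinearMap.congr_fun h (v, 0))
  exact h1

/-- **`SL_m(q²)`** -/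
theorem notMin_even (hF : Fintype.card F = q ^ 2) (hm : 2 ≤ m)
    [IsSimpleGroup (ProjectiveSpecialLinearGroup (Fin m) F)]
    (hna : ∃ x y : ProjectiveSpecialLinearGroup (Fin m) F, x * y ≠ y * x) {p : ℕ} (hp : p.Prime)
    (hd : p ∣ Nat.card (ProjectiveSpecialLinearGroup (Fin m) F)) : NotMin p (PSU (2 * m) F q) := by
  have hq := two_le hF
  have h4 : 4 ≤ Fintype.card F := by rw [hF]; nlinarith
  have h1 : m * (m - 1) + m * m = 2 * m * (2 * m - 1) / 2 := by
    obtain ⟨k, rfl⟩ : ∃ k, m = k + 1 := ⟨m - 1, by omega⟩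
    rw [mul_assoc, Nat.mul_div_cancel_left _ (by norm_num), Nat.add_sub_cancel,
      show 2 * (k + 1) - 1 = 2 * k + 1 by omega]
    ring
  refine notMin_rep (isHerm_evB hF) ?_ (by omega) (Cfsg.Agent.H982.TWModel.perfect_sl hm fun _ => h4) (evρ m hF)
    (evρ_injective hF) (iso_evρ hF) hna hp hd (b := m * (m - 1)) (M := ∏ j ∈ Finset.Icc 2 m, (Fintype.card F ^ j - 1)) ?_ ?_ ?_
  · rw [Module.finrank_prod, Module.finrank_fin_fun, two_mul]
  · rw [Cfsg.Agent.H953.card_SL m (by omega), hF, ← pow_mul, ← Finset.sum_range_id_mul_two, mul_comm 2]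
  · refine Nat.Coprime.prod_right fun j hj => ?_
    rw [hF, ← pow_mul]
    have := coprime_pred_pow (q := q) (by omega) (2 * j - 1)
    rwa [show 2 * j - 1 + 1 = 2 * j by have := (Finset.mem_Icc.1 hj).1; omega] at this
  · have : 0 < m * m := by positivity
    omega

end Cfsg.Agent.H151.PQR
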