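import Cfsg.Agent.H151.PQR.Comp
import Cfsg.Agent.H151.PQR.Even
import Cfsg.Agent.Lib.Zsigmondy

/-!
# The primes dividing `|PSU n F q|`; regular elements of `PSU n F q` (helper151, for S3988)
-/

set_option autoImplicit false
set_option linter.unusedSectionVars false

namespace Cfsg.Agent.H151.PQR

open Cfsg Matrix
open Cfsg.Agent.H948.UProd
open Cfsg.Agent.LieClassical.HermBasic
open Cfsg.Agent.LieClassical.SUBasic (suDiag coe_suDiag)
open Cfsg.Agent.Phan (mat mat_mul mat_one mat_inj mat_isom emb)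
open Cfsg.Agent.ClassicalGeometry.PSUAutBasic (pr pr_eq_one_iff)
open Cfsg.Agent.H562.PQR (PE)

theorem dvd_ph_iff {q : ℕ} (hq : 1 ≤ q) (p i : ℕ) : (p : ℤ) ∣ (-(q : ℤ)) ^ (i + 1) - 1 ↔ p ∣ ph q i := by
  unfold ph
  split_ifs with h
  · have h1 : (-(q : ℤ)) ^ (i + 1) - 1 = -((q ^ (i + 1) + 1 : ℕ) : ℤ) := by
      rw [(h.add_one).neg_pow]
      push_cast
      ring
    rw [h1, dvd_neg, Int.natCast_dvd_natCast]
  · have h2 : Even (i + 1) := by rw [Nat.even_add_one]; exact h
    have h1 : (-(q : ℤ)) ^ (i + 1) - 1 = ((q ^ (i + 1) - 1 : ℕ) : ℤ) := by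
      rw [h2.neg_pow, Nat.cast_sub (Nat.one_le_pow _ _ hq)]
      push_cast
      ring
    rw [h1, Int.natCast_dvd_natCast]

/-- the order of `-q` modulo `p` is at least `n` -/
def Ord (n q p : ℕ) : Prop := ∀ i, 0 < i → i < n → ¬ (p : ℤ) ∣ (-(q : ℤ)) ^ i - 1

section card

variable {F : Type} [Field F] [Fintype F] {m n q p : ℕ}

theorem dvd_psu_of_su (hF : Fintype.card F = q ^ 2) (hm : 3 ≤ m) (hp : p.Prime) (hd : p ∣ Nat.card (SU m F q)) :
    p ∣ Nat.card (PSU m F q) := by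
  have h := Cfsg.Agent.H341.ThreeList.card_psu hF (n := m) (by omega)
  have h1 : ∏ j ∈ Finset.range (m - 1), (if Even j then q ^ (j + 2) - 1 else q ^ (j + 2) + 1) =
      ∏ i ∈ Finset.range (m - 1), ph q (i + 1) := by
    refine Finset.prod_congr rfl fun j _ => ?_
    unfold ph
    by_cases hj : Even j
    · rw [if_pos hj, if_neg (by rw [Nat.even_add_one]; exact not_not.2 hj)]
    · rw [if_neg hj, if_pos (by rw [Nat.even_add_one]; exact hj)]
  rw [h1, ← card_SU hF (by omega)] at h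
  rw [← h] at hd
  rcases (Nat.Prime.dvd_mul hp).1 hd with h2 | h2
  · exact Cfsg.Agent.H254.PSUn.dvd_card hF hm (h2.trans (Nat.gcd_dvd_right _ _))
  · exact h2

theorem card_psu_dvd : Nat.card (PSU n F q) ∣ Nat.card (SU n F q) := Subgroup.card_quotient_dvd_card _

theorem dichotomy (hF : Fintype.card F = q ^ 2) (hn : 3 ≤ n) (hp : p.Prime) (hd : p ∣ Nat.card (PSU n F q)) :
    p ∣ Nat.card (SU (n - 1) F q) ∨ (¬ p ∣ q ∧ Ord n q p ∧ p ∣ ph q (n - 1)) := by
  have hq := two_le hF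
  by_cases h1 : p ∣ q
  · left
    rw [card_SU hF (by omega)]
    refine Dvd.dvd.mul_right (h1.trans (dvd_pow_self q ?_)) _
    intro h2
    have h3 : 2 * 1 ≤ (n - 1) * (n - 1 - 1) := Nat.mul_le_mul (by omega) (by omega)
    omega
  by_cases h2 : ∃ i, i < n - 1 ∧ p ∣ ph q i
  · obtain ⟨i, hi, h3⟩ := h2
    exact Or.inl (dvd_card_SU hF (by omega) hi h3)
  push Not at h2
  right
  refine ⟨h1, fun i hi0 hi h3 => ?_, ?_⟩
  · obtain ⟨j, rfl⟩ : ∃ j, i = j + 1 := ⟨i - 1, by omega⟩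
    rw [dvd_ph_iff (by omega)] at h3
    exact h2 j (by omega) h3
  · rcases prime_dvd_card_PSU hF (by omega) hp hd with h3 | ⟨i, hi, h3⟩
    · exact absurd h3 h1
    · have : i = n - 1 := by
        by_contra h4
        exact h2 i (by omega) h3
      rwa [this] at h3

/-- `p ≠ n` -/
theorem Ord.ne (hn : 2 ≤ n) (hp : p.Prime) (ho : Ord n q p) (hd : (p : ℤ) ∣ (-(q : ℤ)) ^ n - 1) : p ≠ n := by
  rintro rfl
  have := Fact.mk hp
  apply ho 1 one_pos (by omega)
  rw [← ZMod.intCast_zmod_eq_zero_iff_dvd] at hd ⊢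
  push_cast at hd ⊢
  rw [ZMod.pow_card] at hd
  rw [pow_one]
  exact hd

/-- a prime `b` for which `-q` has order `2 h`, `q` a multiple of ... -/
theorem exists_ord {q N : ℕ} (hq : 3 ≤ q) (hN : Even N) (hN4 : 4 ≤ N) :
    ∃ b : ℕ, b.Prime ∧ b ≠ 2 ∧ ¬ b ∣ q ∧ Ord N q b ∧ (b : ℤ) ∣ (-(q : ℤ)) ^ N - 1 := by
  have key : ∀ (b i : ℕ), (b : ℤ) ∣ (-(q : ℤ)) ^ i - 1 ↔ (-(q : ZMod b)) ^ i = 1 := by
    intro b i
    rw [← ZMod.intCast_zmod_eq_zero_iff_dvd]
    push_cast
    exact sub_eq_zero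
  have hnq : ∀ (b h : ℕ), b.Prime → orderOf (q : ZMod b) = h → 2 ≤ h → ¬ b ∣ q := by
    intro b h hb hbo hh hd
    have h1 : (q : ZMod b) = 0 := (ZMod.natCast_eq_zero_iff _ _).2 hd
    have := Fact.mk hb
    have h2 : orderOf (0 : ZMod b) = 0 := by
      rw [orderOf_eq_zero_iff']
      intro k hk h3
      rw [zero_pow hk.ne'] at h3
      exact zero_ne_one h3
    rw [h1, h2] at hbo
    omega
  have hb2 : ∀ (b h : ℕ), b.Prime → orderOf (q : ZMod b) = h → 2 ≤ h → b ≠ 2 := by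
    intro b h hb hbo hh h2
    have h3 := Cfsg.Agent.Lib.Zsigmondy.orderOf_dvd_pred hb (hnq b h hb hbo hh)
    rw [hbo, h2] at h3
    have := Nat.le_of_dvd (by norm_num) h3
    omega
  obtain ⟨h, rfl⟩ : ∃ h, N = 2 * h := hN.two_dvd
  rcases Nat.even_or_odd h with he | ho
  · -- order of `q` is `2 h`
    obtain ⟨b, hb, hbo⟩ := Cfsg.Agent.Lib.Zsigmondy.exists_prime_orderOf (a := q) (n := 2 * h) (by omega) (by omega)
      (by intro h1; omega) (by rintro ⟨h1, -⟩; omega)
    have := Fact.mk hb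
    refine ⟨b, hb, hb2 b _ hb hbo (by omega), hnq b _ hb hbo (by omega), fun i hi0 hi h1 => ?_, ?_⟩
    · rw [key] at h1
      have h2 : (q : ZMod b) ^ (i * 2) = 1 := by
        have h3 : ((-(q : ZMod b)) ^ i) ^ 2 = 1 := by rw [h1, one_pow]
        rw [← pow_mul, (even_two.mul_left i).neg_pow] at h3
        exact h3
      have h3 := orderOf_dvd_of_pow_eq_one h2
      rw [hbo, mul_comm i 2] at h3
      have h4 := Nat.dvd_of_mul_dvd_mul_left (by norm_num) h3
      obtain ⟨t, rfl⟩ := h4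
      have ht : t = 1 := by
        have h5 : h * t < h * 2 := by omega
        have h6 := lt_of_mul_lt_mul_left h5 (Nat.zero_le h)
        have h7 : 0 < t := Nat.pos_of_mul_pos_left (by omega : 0 < h * t)
        omega
      rw [ht, mul_one, he.neg_pow] at h1
      have h5 := orderOf_dvd_of_pow_eq_one h1
      rw [hbo] at h5
      have := Nat.le_of_dvd (by omega) h5
      omega
    · rw [key, (even_two_mul h).neg_pow, ← hbo]
      exact pow_orderOf_eq_one _
  · obtain ⟨b, hb, hbo⟩ := Cfsg.Agent.Lib.Zsigmondy.exists_prime_orderOf (a := q) (n := h) (by omega) (by omega)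
      (by rintro rfl; exact absurd ho (by decide)) (by rintro ⟨h1, -⟩; omega)
    have := Fact.mk hb
    have hbne := hb2 b _ hb hbo (by omega)
    refine ⟨b, hb, hbne, hnq b _ hb hbo (by omega), fun i hi0 hi h1 => ?_, ?_⟩
    · rw [key] at h1
      have h2 : (q : ZMod b) ^ (2 * i) = 1 := by
        have h3 : ((-(q : ZMod b)) ^ i) ^ 2 = 1 := by rw [h1, one_pow]
        rw [← pow_mul, (even_two.mul_left i).neg_pow, mul_comm] at h3
        exact h3
      have h3 := orderOf_dvd_of_pow_eq_one h2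
      rw [hbo] at h3
      have h4 : h ∣ i := (Nat.Coprime.dvd_of_dvd_mul_left (Nat.coprime_two_right.2 ho) h3)
      obtain ⟨t, rfl⟩ := h4
      have ht : t = 1 := by
        have h5 : h * t < h * 2 := by omega
        have h6 := lt_of_mul_lt_mul_left h5 (Nat.zero_le h)
        have h7 : 0 < t := Nat.pos_of_mul_pos_left (by omega : 0 < h * t)
        omega
      rw [ht, mul_one, ho.neg_pow] at h1
      have h5 : (q : ZMod b) ^ h = 1 := by rw [← hbo]; exact pow_orderOf_eq_one _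
      rw [h5] at h1
      have h6 : ((2 : ℕ) : ZMod b) = 0 := by
        push_cast
        linear_combination -h1
      rw [ZMod.natCast_eq_zero_iff] at h6
      exact hbne ((Nat.prime_dvd_prime_iff_eq hb Nat.prime_two).1 h6)
    · rw [key, (even_two_mul h).neg_pow, mul_comm, pow_mul]
      have h5 : (q : ZMod b) ^ h = 1 := by rw [← hbo]; exact pow_orderOf_eq_one _
      rw [h5, one_pow]

/-- an odd prime dividing `3 ^ f + 1`, `f ≥ 2` -/
theorem exists_odd_dvd {f : ℕ} (hf : 2 ≤ f) : ∃ b : ℕ, b.Prime ∧ b ≠ 2 ∧ b ∣ 3 ^ f + 1 := by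
  by_contra hcon
  push Not at hcon
  have h8 : ∀ i : ℕ, 3 ^ i % 8 = 1 ∨ 3 ^ i % 8 = 3 := by
    intro i
    induction i with
    | zero => left; rfl
    | succ i ih => rw [pow_succ, Nat.mul_mod]; rcases ih with h | h <;> rw [h] <;> simp
  have h1 : ∃ k, 3 ^ f + 1 = 2 ^ k := by
    refine ⟨_, (Nat.eq_prime_pow_of_unique_prime_dvd (p := 2) (Nat.succ_ne_zero (3 ^ f)) ?_)⟩
    intro b hb hd
    by_contra h
    exact hcon b hb h hd
  obtain ⟨k, hk⟩ := h1
  have h3 : 3 ^ 2 ≤ 3 ^ f := Nat.pow_le_pow_right (by norm_num) hf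
  have h4 : 4 ≤ k := by
    by_contra h4
    have : 2 ^ k ≤ 2 ^ 3 := Nat.pow_le_pow_right (by norm_num) (by omega)
    omega
  obtain ⟨j, rfl⟩ := Nat.exists_eq_add_of_le h4
  rw [pow_add] at hk
  rcases h8 f with h5 | h5 <;> omega

end card

section elts

variable {F : Type} [Field F] [Fintype F] {n q p r : ℕ}

theorem pe_of_dist {k : Type*} [Field k] [Algebra F k] (hF : Fintype.card F = q ^ 2) (hn : 3 ≤ n) (hp : p.Prime)
    {g : SU n F q} (hg : g ^ p = 1) (hd : Dist k (mat g)) : PE p (pr n F q g) := by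
  have := Fact.mk hp
  apply PE.of_orderOf hp
  apply orderOf_eq_prime
  · rw [← map_pow, hg, map_one]
  · rw [Ne, pr_eq_one_iff]
    exact not_center_of_dist hF hn hd

/-- elements of order `p`, the order of `-q` modulo `p` is `n` -/
theorem exists_top [Fact r.Prime] [CharP F r] (hF : Fintype.card F = q ^ 2) (hn : 3 ≤ n) (hp : p.Prime)
    (hpq : ¬ p ∣ q) (ho : Ord n q p) (hd : p ∣ Nat.card (SU n F q)) :
    ∃ x : PSU n F q, PE p x ∧ ¬ r ∣ Nat.card (Subgroup.centralizer ({x} : Set (PSU n F q))) := by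
  have := Fact.mk hp
  obtain ⟨g, hg⟩ := exists_prime_orderOf_dvd_card' p hd
  have hgp : g ^ p = 1 := by rw [← hg]; exact pow_orderOf_eq_one g
  have hg1 : g ≠ 1 := by
    rintro rfl
    rw [orderOf_one] at hg
    exact hp.one_lt.ne hg
  obtain ⟨S, hS, hr⟩ := distinct_of_order (k := AlgebraicClosure F) hF hp hpq ho hgp hg1
  have hdist : Dist (AlgebraicClosure F) (mat g) := ⟨S, hS.ge, fun μ hμ => (hr μ hμ).1⟩
  exact ⟨pr n F q g, pe_of_dist hF hn hp hgp hdist, not_dvd_centralizer hF hn hdist⟩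

/-- `n` an odd prime, not the characteristic: the `n`-cycle -/
theorem exists_cyc [Fact r.Prime] [CharP F r] (hF : Fintype.card F = q ^ 2) (hn : 3 ≤ n) (hp : n.Prime) (hnr : n ≠ r) :
    ∃ x : PSU n F q, PE n x ∧ ¬ r ∣ Nat.card (Subgroup.centralizer ({x} : Set (PSU n F q))) := by
  have hr : r.Prime := Fact.out
  have hck : CharP (AlgebraicClosure F) r :=
    charP_of_injective_algebraMap (algebraMap F (AlgebraicClosure F)).injective r
  have hnk : (n : AlgebraicClosure F) ≠ 0 := by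
    rw [Ne, CharP.cast_eq_zero_iff (AlgebraicClosure F) r]
    intro h
    exact hnr ((Nat.prime_dvd_prime_iff_eq hr hp).1 h).symm
  obtain ⟨y, hy, hdist⟩ := exists_cycle (F := F) (q := q) (k := AlgebraicClosure F) hn (hp.odd_of_ne_two (by omega)) hnk
  exact ⟨pr n F q y, pe_of_dist hF hn hp hy hdist, not_dvd_centralizer hF hn hdist⟩

/-- elements `diag(y, 1)` of order `p`, the order of `-q` modulo `p` is `m` -/
theorem exists_emb [Fact r.Prime] [CharP F r] {m : ℕ} (hF : Fintype.card F = q ^ 2) (hm : 2 ≤ m) (hp : p.Prime)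
    (hpq : ¬ p ∣ q) (ho : Ord m q p) (hd : p ∣ Nat.card (SU m F q)) :
    ∃ x : PSU (m + 1) F q, PE p x ∧ ¬ r ∣ Nat.card (Subgroup.centralizer ({x} : Set (PSU (m + 1) F q))) := by
  have := Fact.mk hp
  obtain ⟨g, hg⟩ := exists_prime_orderOf_dvd_card' p hd
  have hgp : g ^ p = 1 := by rw [← hg]; exact pow_orderOf_eq_one g
  have hg1 : g ≠ 1 := by
    rintro rfl
    rw [orderOf_one] at hg
    exact hp.one_lt.ne hg
  obtain ⟨S, hS, hr⟩ := distinct_of_order (k := AlgebraicClosure F) hF hp hpq ho hgp hg1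
  have h0 : 0 + m ≤ m + 1 := by omega
  have hdist := dist_emb hF S hS hr h0
  refine ⟨pr (m + 1) F q (emb hF 0 h0 g), pe_of_dist hF (by omega) hp ?_ hdist, not_dvd_centralizer hF (by omega) hdist⟩
  rw [← map_pow, hgp, map_one]

/-- `diag(ζ, ζ⁻¹, 1)`, `p` an odd prime dividing `q + 1` -/
theorem exists_diag [Fact r.Prime] [CharP F r] (hF : Fintype.card F = q ^ 2) (hp : p.Prime) (hp2 : p ≠ 2)
    (hd : p ∣ q + 1) :
    ∃ x : PSU 3 F q, PE p x ∧ ¬ r ∣ Nat.card (Subgroup.centralizer ({x} : Set (PSU 3 F q))) := by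
  classical
  have := Fact.mk hp
  have hq := two_le hF
  have hcard : Nat.card Fˣ = (q + 1) * (q - 1) := by
    rw [Nat.card_units, Nat.card_eq_fintype_card, hF]
    obtain ⟨a, rfl⟩ : ∃ a, q = a + 1 := ⟨q - 1, by omega⟩
    rw [Nat.add_sub_cancel]
    have : (a + 1) ^ 2 = (a + 1 + 1) * a + 1 := by ring
    omega
  obtain ⟨z, hz⟩ := exists_prime_orderOf_dvd_card' (G := Fˣ) p (hcard ▸ Dvd.dvd.mul_right hd _)
  have hzp : z ^ p = 1 := by rw [← hz]; exact pow_orderOf_eq_one z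
  have hz1 : z ≠ 1 := by
    rintro rfl
    rw [orderOf_one] at hz
    exact hp.one_lt.ne hz
  have hz2 : z ^ 2 ≠ 1 := by
    intro h
    have h1 := orderOf_dvd_of_pow_eq_one h
    rw [hz] at h1
    exact hp2 ((Nat.prime_dvd_prime_iff_eq hp Nat.prime_two).1 h1)
  have hzq : z ^ (q + 1) = 1 := by
    obtain ⟨t, ht⟩ := hd
    rw [ht, pow_mul, hzp, one_pow]
  let a : Fin 3 → F := ![(z : F), ((z⁻¹ : Fˣ) : F), 1]
  have hprod : ∏ i, a i = 1 := by
    rw [Fin.prod_univ_three]
    simp [a]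
  have hnorm : ∀ i, a i ^ (q + 1) = 1 := by
    intro i
    fin_cases i
    · show (z : F) ^ (q + 1) = 1
      rw [← Units.val_pow_eq_pow_val, hzq, Units.val_one]
    · show ((z⁻¹ : Fˣ) : F) ^ (q + 1) = 1
      rw [← Units.val_pow_eq_pow_val, inv_pow, hzq, inv_one, Units.val_one]
    · show (1 : F) ^ (q + 1) = 1
      exact one_pow _
  have hane : Function.Injective a := by
    have h01 : (z : F) ≠ ((z⁻¹ : Fˣ) : F) := fun h => hz2 (by
      have h1 : z = z⁻¹ := Units.ext h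
      rw [pow_two]
      nth_rewrite 2 [h1]
      exact mul_inv_cancel z)
    have h02 : (z : F) ≠ 1 := fun h => hz1 (Units.ext h)
    have h12 : ((z⁻¹ : Fˣ) : F) ≠ 1 := fun h => hz1 (inv_eq_one.1 (Units.ext h))
    intro i j hij
    fin_cases i <;> fin_cases j
    · rfl
    · exact absurd hij h01
    · exact absurd hij h02
    · exact absurd hij.symm h01
    · rfl
    · exact absurd hij h12
    · exact absurd hij.symm h02
    · exact absurd hij.symm h12
    · rfl
  let g : SU 3 F q := suDiag q a hprod hnorm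
  have hg : g ^ p = 1 := by
    apply mat_inj
    have hmp : ∀ i : ℕ, mat (g ^ i) = mat g ^ i := by
      intro i
      induction i with
      | zero => rw [pow_zero, pow_zero, mat_one]
      | succ i ih => rw [pow_succ, mat_mul, ih, pow_succ]
    rw [hmp, mat_one]
    show (Matrix.diagonal a) ^ p = 1
    rw [Matrix.diagonal_pow, ← Matrix.diagonal_one]
    congr 1
    funext i
    rw [Pi.pow_apply]
    fin_cases i
    · show (z : F) ^ p = 1
      rw [← Units.val_pow_eq_pow_val, hzp, Units.val_one]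
    · show ((z⁻¹ : Fˣ) : F) ^ p = 1
      rw [← Units.val_pow_eq_pow_val, inv_pow, hzp, inv_one, Units.val_one]
    · show (1 : F) ^ p = 1
      exact one_pow _
  have hdist : Dist F (mat g) := by
    refine ⟨Finset.univ.image a, ?_, fun μ hμ => ?_⟩
    · rw [Finset.card_image_of_injective _ hane, Finset.card_univ, Fintype.card_fin]
    · obtain ⟨i, -, rfl⟩ := Finset.mem_image.1 hμ
      have h1 : mat g = Matrix.diagonal a := rfl
      rw [h1, Algebra.algebraMap_self, Polynomial.map_id, Matrix.charpoly_diagonal, Polynomial.IsRoot,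
        Polynomial.eval_prod]
      refine Finset.prod_eq_zero (Finset.mem_univ i) ?_
      simp
  exact ⟨pr 3 F q g, pe_of_dist hF le_rfl hp hg hdist, not_dvd_centralizer hF le_rfl hdist⟩

end elts

end Cfsg.Agent.H151.PQR
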