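import Cfsg.Agent.H151.PQR.NM

/-!
# `SU_k(q ^ m)` in `PSU_{km}(q)`, `m` odd (helper151, for S3988)
-/

set_option autoImplicit false
set_option linter.unusedSectionVars false

namespace Cfsg.Agent.H151.PQR

open Cfsg Matrix
open Cfsg.Agent.H948.UBase Cfsg.Agent.H948.UProd Cfsg.Agent.H948.UTorus
open Cfsg.Agent.LieClassical.HermBasic
open Cfsg.Agent.Phan (mat mat_mul mat_one mat_inj mat_isom)
open Cfsg.Agent.ClassicalGeometry.PSUAutBasic (pr pr_eq_one_iff)
open Cfsg.Agent.H562.PQR (NotMin)

variable {F : Type} [Field F] [Fintype F] {q k m : ℕ} {L : Type} [Field L] [Fintype L] [Algebra F L]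

/-- the form -/
noncomputable def trB (k : ℕ) (L : Type) [Field L] [Fintype L] [Algebra F L] (hF : Fintype.card F = q ^ 2) (hm : Odd m) :
    (Fin k → L) →ₛₗ[cj hF] (Fin k → L) →ₗ[F] F :=
  LinearMap.mk₂'ₛₗ (cj hF) (RingHom.id F)
    (fun x y => ∑ i, Algebra.trace F L (x i ^ q ^ m * y i))
    (fun x y z => by
      rw [← Finset.sum_add_distrib]
      exact Finset.sum_congr rfl fun i _ => by rw [Pi.add_apply, add_pow_qe hF, add_mul, map_add])
    (fun c x y => by
      rw [Finset.smul_sum]
      refine Finset.sum_congr rfl fun i _ => ?_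
      rw [Pi.smul_apply, Algebra.smul_def, mul_pow, ← map_pow, pow_odd hF _ hm, mul_assoc, ← Algebra.smul_def, map_smul]
      rfl)
    (fun x y z => by
      rw [← Finset.sum_add_distrib]
      exact Finset.sum_congr rfl fun i _ => by rw [Pi.add_apply, mul_add, map_add])
    (fun c x y => by
      rw [Finset.smul_sum]
      refine Finset.sum_congr rfl fun i _ => ?_
      rw [Pi.smul_apply, mul_smul_comm, map_smul]
      rfl)

theorem trB_apply (hF : Fintype.card F = q ^ 2) (hm : Odd m) (x y : Fin k → L) :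
    trB k L hF hm x y = ∑ i, Algebra.trace F L (x i ^ q ^ m * y i) := rfl

theorem trB_eq (hF : Fintype.card F = q ^ 2) (hm : Odd m) (x y : Fin k → L) :
    trB k L hF hm x y = Algebra.trace F L (hermForm k L (q ^ m) y x) := by
  rw [trB_apply, hermForm, map_sum]
  exact Finset.sum_congr rfl fun i _ => by rw [mul_comm]

theorem isHerm_trB (hF : Fintype.card F = q ^ 2) (hm : Odd m) (hL : Fintype.card L = (q ^ m) ^ 2) :
    IsHerm hF (trB k L hF hm) where
  symm := ⟨fun x y => by
    rw [trB_apply, trB_apply, map_sum]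
    refine Finset.sum_congr rfl fun i _ => ?_
    rw [trace_odd hF hm, mul_pow, pow_q_pow_q hL, mul_comm]⟩
  sep := fun x h => by
    funext i
    have h1 := eq_zero_of_trace (F := F) (x := x i ^ q ^ m) (fun y => by
      have h2 := h (Pi.single i y)
      rw [trB_apply, Finset.sum_eq_single i] at h2
      · rwa [Pi.single_eq_same] at h2
      · intro j _ hj
        rw [Pi.single_eq_of_ne hj, mul_zero, map_zero]
      · intro h3
        exact absurd (Finset.mem_univ i) h3)
    exact (pow_eq_zero_iff (q_pos hL).ne').1 h1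

/-- the representation of `SU_k(q ^ m)` -/
noncomputable def resρ (k : ℕ) (F : Type) [Field F] (L : Type) [Field L] [Algebra F L] (Q : ℕ) :
    SU k L Q →* Module.End F (Fin k → L) where
  toFun g := (Matrix.toLin' (mat g)).restrictScalars F
  map_one' := by rw [mat_one, Matrix.toLin'_one]; rfl
  map_mul' g h := by rw [mat_mul, Matrix.toLin'_mul]; rfl

theorem resρ_apply (Q : ℕ) (g : SU k L Q) (x : Fin k → L) : resρ k F L Q g x = mat g *ᵥ x := rfl

theorem resρ_injective (Q : ℕ) : Function.Injective (resρ k F L Q) := by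
  intro g h hgh
  apply mat_inj
  apply Matrix.toLin'.injective
  refine LinearMap.ext fun v => ?_
  exact LinearMap.congr_fun hgh v

theorem iso_resρ (hF : Fintype.card F = q ^ 2) (hm : Odd m) (g : SU k L (q ^ m)) :
    Iso (trB k L hF hm) (resρ k F L (q ^ m) g) := by
  intro x y
  rw [trB_eq, trB_eq, resρ_apply, resρ_apply]
  exact congrArg _ ((Cfsg.Agent.LieClassical.SUBasic.mem_SU_iff _).1 g.2 y x)

/-- **`SU_k(q ^ m)`** -/
theorem notMin_comp (hF : Fintype.card F = q ^ 2) (hk : 3 ≤ k) (hm : Odd m) (hm3 : 3 ≤ m)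
    (hL : Fintype.card L = (q ^ m) ^ 2) (hdim : Module.finrank F L = m)
    (hna : ∃ x y : PSU k L (q ^ m), x * y ≠ y * x) {p : ℕ} (hp : p.Prime)
    (hd : p ∣ Nat.card (PSU k L (q ^ m))) : NotMin p (PSU (k * m) F q) := by
  have hq := two_le hF
  have h32 : ¬ (k = 3 ∧ q ^ m = 2) := by
    rintro ⟨-, h⟩
    have h1 : 2 ^ 3 ≤ q ^ m := (Nat.pow_le_pow_left hq 3).trans (Nat.pow_le_pow_right (by omega) hm3)
    omega
  have : IsSimpleGroup (SU k L (q ^ m) ⧸ Subgroup.center (SU k L (q ^ m))) := Cfsg.Agent.S0283.result hL k hk h32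
  have hfin : Module.Finite F L := Module.finite_of_finrank_pos (by omega)
  refine notMin_rep (isHerm_trB (k := k) (L := L) hF hm hL) ?_ (by nlinarith)
    (Cfsg.Agent.LieClassical.HermPerfect.commutator_SU_eq_top hL hk h32) (resρ k F L (q ^ m))
    (resρ_injective _) (iso_resρ hF hm) hna hp hd (b := m * (k * (k - 1) / 2))
    (M := ∏ i ∈ Finset.range (k - 1), ph (q ^ m) (i + 1)) ?_ ?_ ?_
  · rw [Module.finrank_pi_fintype, Finset.sum_const, hdim, Finset.card_univ, Fintype.card_fin, smul_eq_mul]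
  · rw [card_SU hL (by omega), ← pow_mul]
  · refine Nat.Coprime.prod_right fun i _ => ?_
    exact Nat.Coprime.coprime_dvd_left (dvd_pow_self q (by omega)) (coprime_ph hL _)
  · obtain ⟨j, rfl⟩ : ∃ j, k = j + 1 := ⟨k - 1, by omega⟩
    rw [Nat.add_sub_cancel]
    have h1 : 2 * ((j + 1) * j / 2) = (j + 1) * j := Nat.mul_div_cancel' (by rw [mul_comm]; exact (Nat.even_mul_succ_self j).two_dvd)
    have h2 : 2 * ((j + 1) * m * ((j + 1) * m - 1) / 2) = (j + 1) * m * ((j + 1) * m - 1) := by
      refine Nat.mul_div_cancel' ?_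
      have := Nat.even_mul_pred_self ((j + 1) * m)
      exact this.two_dvd
    have h3 : (j + 1) * m * j < (j + 1) * m * ((j + 1) * m - 1) := by
      refine Nat.mul_lt_mul_of_pos_left ?_ (by positivity)
      have : (j + 1) * 3 ≤ (j + 1) * m := Nat.mul_le_mul_left _ hm3
      omega
    have h4 : 2 * (m * ((j + 1) * j / 2)) = (j + 1) * m * j := by
      rw [mul_left_comm, h1]; ring
    omega

end Cfsg.Agent.H151.PQR
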