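import Cfsg.Agent.H151.PQR.Reg
import Mathlib.RingTheory.RootsOfUnity.EnoughRootsOfUnity
import Mathlib.RingTheory.RootsOfUnity.AlgebraicallyClosed

/-!
# The permutation matrix of an `n`-cycle, block diagonal elements (helper151)

* `exists_cycle` : `n` odd prime to the characteristic: an element `y` of `SU n F q` with `y ^ n = 1` and `n` distinct
  eigenvalues;
* `not_center_of_dist` : an element with `n ≥ 2` distinct eigenvalues is not central;
* `dist_emb` : `diag(g, 1)`.
-/

set_option autoImplicit false
set_option linter.unusedSectionVars false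

namespace Cfsg.Agent.H151.PQR

open Cfsg Matrix Polynomial
open Cfsg.Agent.LieClassical.HermBasic
open Cfsg.Agent.LieClassical.SUBasic (suPerm coe_suPerm)
open Cfsg.Agent.Phan (mat mat_mul mat_one mat_inj mat_isom emb sh sh_val emb_mulVec_sh emb_mulVec_lt)
open Cfsg.Agent.ClassicalGeometry.PSUAutBasic (pr exists_scalar_of_mem_center)

variable {F : Type*} [Field F] [Fintype F] {n q : ℕ} {k : Type*} [Field k] [Algebra F k]

theorem not_center_of_dist (hF : Fintype.card F = q ^ 2) (hn : 3 ≤ n) {x : SU n F q} (hx : Dist k (mat x)) :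
    x ∉ Subgroup.center (SU n F q) := by
  classical
  intro hc
  obtain ⟨c, -, -, h⟩ := exists_scalar_of_mem_center hF hn hc
  obtain ⟨S, hS, hroot⟩ := hx
  have hm : mat x = c • (1 : Matrix (Fin n) (Fin n) F) := by
    apply Matrix.toLin'.injective
    refine LinearMap.ext fun v => ?_
    rw [Matrix.toLin'_apply, map_smul, LinearMap.smul_apply, Matrix.toLin'_one]
    exact h v
  have h1 : ∀ μ ∈ S, μ = algebraMap F k c := by
    intro μ hμ
    obtain ⟨v, hv0, hv⟩ := exists_eigen (hroot μ hμ)
    have h2 : (mat x).map (algebraMap F k) = algebraMap F k c • (1 : Matrix (Fin n) (Fin n) k) := by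
      rw [hm]
      ext i j
      simp [Matrix.one_apply, apply_ite (algebraMap F k)]
    rw [h2, Matrix.smul_mulVec, Matrix.one_mulVec] at hv
    exact (smul_left_injective k hv0 hv).symm
  have h2 : S.card ≤ 1 := Finset.card_le_one.2 fun a ha b hb => by rw [h1 a ha, h1 b hb]
  omega

theorem finRotate_pow (m : ℕ) (j : ℕ) (i : Fin (m + 1)) :
    (((finRotate (m + 1)) ^ j) i : ℕ) = (i + j) % (m + 1) := by
  induction j generalizing i with
  | zero => rw [pow_zero, Equiv.Perm.one_apply, add_zero, Nat.mod_eq_of_lt i.2]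
  | succ j ih =>
    have h1 : ((i + 1 : Fin (m + 1)) : ℕ) = (i + 1) % (m + 1) := by
      rw [Fin.val_add_one]
      by_cases hi : i = Fin.last m
      · rw [if_pos hi, hi, Fin.val_last, Nat.mod_self]
      · rw [if_neg hi, Nat.mod_eq_of_lt]
        have := Fin.val_lt_last hi
        omega
    rw [pow_succ, Equiv.Perm.mul_apply, ih, finRotate_apply, h1, Nat.mod_add_mod]
    congr 1
    ring

/-- the permutation matrix of an `n`-cycle -/
theorem exists_cycle [IsAlgClosed k] (hn : 3 ≤ n) (hodd : Odd n) (hnk : (n : k) ≠ 0) :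
    ∃ y : SU n F q, y ^ n = 1 ∧ Dist k (mat y) := by
  classical
  obtain ⟨m, rfl⟩ : ∃ m, n = m + 1 := ⟨n - 1, by omega⟩
  have hm : Even m := by
    rcases hodd with ⟨a, ha⟩
    exact ⟨a, by omega⟩
  have hsign : Equiv.Perm.sign (finRotate (m + 1)) = 1 := by
    rw [sign_finRotate, Nat.add_sub_cancel, hm.neg_one_pow]
  have : NeZero ((m + 1 : ℕ) : k) := ⟨hnk⟩
  obtain ⟨ω, hω⟩ := HasEnoughRootsOfUnity.exists_primitiveRoot k (m + 1)
  refine ⟨suPerm q (finRotate (m + 1)) hsign, ?_, (Finset.range (m + 1)).image fun i => ω ^ i, ?_, ?_⟩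
  · have h1 : ∀ j : ℕ, ∀ v : Fin (m + 1) → F,
        mat ((suPerm q (finRotate (m + 1)) hsign : SU (m + 1) F q) ^ j) *ᵥ v = v ∘ ((finRotate (m + 1)) ^ j) := by
      intro j
      induction j with
      | zero => intro v; rw [pow_zero, mat_one, Matrix.one_mulVec, pow_zero]; rfl
      | succ j ih =>
        intro v
        have h2 : mat (suPerm q (finRotate (m + 1)) hsign : SU (m + 1) F q) *ᵥ v = v ∘ (finRotate (m + 1)) := by
          change (finRotate (m + 1)).permMatrix F *ᵥ v = _
          rw [Matrix.permMatrix_mulVec]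
        rw [pow_succ, mat_mul, ← Matrix.mulVec_mulVec, h2, ih, pow_succ']
        rfl
    apply mat_inj
    apply Matrix.toLin'.injective
    refine LinearMap.ext fun v => ?_
    rw [Matrix.toLin'_apply, h1, mat_one, Matrix.toLin'_one, LinearMap.id_apply]
    funext i
    rw [Function.comp_apply]
    congr 1
    apply Fin.ext
    rw [finRotate_pow, Nat.add_mod_right, Nat.mod_eq_of_lt i.2]
  · rw [Finset.card_image_of_injOn, Finset.card_range]
    intro i hi j hj hij
    rw [Finset.coe_range, Set.mem_Iio] at hi hj
    exact hω.pow_inj hi hj hij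
  · intro μ hμ
    obtain ⟨i, -, rfl⟩ := Finset.mem_image.1 hμ
    refine root_of_eigen (v := fun l : Fin (m + 1) => (ω ^ i) ^ (l : ℕ)) ?_ ?_
    · intro h
      have := congrFun h 0
      simp at this
    · have h1 : (mat (suPerm q (finRotate (m + 1)) hsign : SU (m + 1) F q)).map (algebraMap F k) =
          (finRotate (m + 1)).permMatrix k := by
        change ((finRotate (m + 1)).permMatrix F).map (algebraMap F k) = _
        ext a b
        rw [Matrix.map_apply, Equiv.Perm.permMatrix, Equiv.Perm.permMatrix, PEquiv.toMatrix_apply,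
          PEquiv.toMatrix_apply]
        split_ifs <;> simp
      rw [h1, Matrix.permMatrix_mulVec]
      funext l
      rw [Function.comp_apply, Pi.smul_apply, smul_eq_mul, finRotate_apply]
      have h2 : (ω ^ i) ^ (m + 1) = 1 := by rw [← pow_mul, mul_comm, pow_mul, hω.pow_eq_one, one_pow]
      by_cases hl : (l : ℕ) = m
      · have h3 : ((l + 1 : Fin (m + 1)) : ℕ) = 0 := by
          rw [Fin.val_add_one]
          rw [if_pos (Fin.ext hl)]
        rw [h3, pow_zero, hl, ← pow_succ', h2]
      · have h3 : ((l + 1 : Fin (m + 1)) : ℕ) = l + 1 := by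
          rw [Fin.val_add_one]
          rw [if_neg (fun h => hl (congrArg Fin.val h))]
        rw [h3, pow_succ']

/-- `diag(g, 1)` -/
theorem dist_emb (hF : Fintype.card F = q ^ 2) {m : ℕ} {g : SU m F q} (S : Finset k) (hS : S.card = m)
    (hroot : ∀ μ ∈ S, ((mat g).charpoly.map (algebraMap F k)).IsRoot μ ∧ μ ≠ 1) (h : 0 + m ≤ m + 1) :
    Dist k (mat (emb hF 0 h g : SU (m + 1) F q)) := by
  classical
  set M := mat (emb hF 0 h g : SU (m + 1) F q) with hM
  have hsh : ∀ i : Fin m, sh 0 h i = i.castSucc := fun i => Fin.ext (by rw [sh_val]; simp)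
  have hcol : ∀ (x : Fin (m + 1)) (a : Fin (m + 1)), M a x = (M *ᵥ Pi.single x 1) a := by
    intro x a
    rw [Matrix.mulVec_single_one]
    rfl
  have e1 : ∀ i j : Fin m, M i.castSucc j.castSucc = mat g i j := by
    intro i j
    rw [hcol, ← hsh i, hM, emb_mulVec_sh]
    have h1 : (Pi.single j.castSucc 1 : Fin (m + 1) → F) ∘ sh 0 h = Pi.single j 1 := by
      funext l
      rw [Function.comp_apply, hsh]
      by_cases hl : l = j
      · rw [hl, Pi.single_eq_same, Pi.single_eq_same]
      · rw [Pi.single_eq_of_ne hl, Pi.single_eq_of_ne (fun h => hl (Fin.castSucc_injective m h))]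
    rw [h1, Matrix.mulVec_single_one]
    rfl
  have e2 : ∀ i : Fin m, M i.castSucc (Fin.last m) = 0 := by
    intro i
    rw [hcol, ← hsh i, hM, emb_mulVec_sh]
    have h1 : (Pi.single (Fin.last m) 1 : Fin (m + 1) → F) ∘ sh 0 h = 0 := by
      funext l
      rw [Function.comp_apply, hsh, Pi.single_eq_of_ne (Fin.castSucc_lt_last l).ne]
      rfl
    rw [h1, Matrix.mulVec_zero]
    rfl
  have e3 : ∀ x : Fin (m + 1), M (Fin.last m) x = (Pi.single x 1 : Fin (m + 1) → F) (Fin.last m) := by
    intro x
    rw [hcol, hM]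
    exact emb_mulVec_lt hF h g _ (Or.inr (by simp))
  refine ⟨insert 1 S, ?_, ?_⟩
  · rw [Finset.card_insert_of_notMem (fun h => (hroot 1 h).2 rfl), hS]
  · intro μ hμ
    rcases Finset.mem_insert.1 hμ with rfl | hμ
    · refine root_of_eigen (v := Pi.single (Fin.last m) 1) ?_ ?_
      · intro h1
        have := congrFun h1 (Fin.last m)
        rw [Pi.single_eq_same] at this
        exact one_ne_zero this
      · rw [one_smul, Matrix.mulVec_single_one]
        funext a
        change algebraMap F k (M a (Fin.last m)) = _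
        induction a using Fin.lastCases with
        | last => rw [e3, Pi.single_eq_same, Pi.single_eq_same, map_one]
        | cast i => rw [e2, map_zero, Pi.single_eq_of_ne (Fin.castSucc_lt_last i).ne]
    · obtain ⟨w, hw0, hw⟩ := exists_eigen (hroot μ hμ).1
      refine root_of_eigen (v := Fin.snoc w 0) ?_ ?_
      · intro h1
        apply hw0
        funext i
        have := congrFun h1 i.castSucc
        rwa [Fin.snoc_castSucc] at this
      · funext a
        rw [Matrix.mulVec, dotProduct, Fin.sum_univ_castSucc, Pi.smul_apply]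
        simp only [Fin.snoc_castSucc, Fin.snoc_last, mul_zero, add_zero, Matrix.map_apply]
        induction a using Fin.lastCases with
        | last =>
          rw [Fin.snoc_last, smul_zero]
          refine Finset.sum_eq_zero fun j _ => ?_
          rw [e3, Pi.single_eq_of_ne (Fin.castSucc_lt_last j).ne', map_zero, zero_mul]
        | cast i =>
          rw [Fin.snoc_castSucc]
          have h1 := congrFun hw i
          rw [Matrix.mulVec, dotProduct, Pi.smul_apply] at h1
          rw [← h1]
          refine Finset.sum_congr rfl fun j _ => ?_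
          rw [e1]
          rfl

end Cfsg.Agent.H151.PQR
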