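import Cfsg.Agent.H151.PQR.Cyc
import Cfsg.Agent.H948.UTorus
import Cfsg.Agent.H341.ThreeElts
import Cfsg.Agent.H953.Index
import Cfsg.Agent.H562.PQR.Iface
import Cfsg.Agent.H749.FieldExt
import Cfsg.Agent.H254.CopLin
import Cfsg.Agent.LieClassical.HermPerfect
import Cfsg.Agent.S0283

/-!
# Proper subgroups of `PSU n F q` (helper151, for S3988)

* `not_surj` : homomorphisms which are not surjective, comparing the powers of `q`;
* `notMin_rep` : a perfect group of isometries of an `n`-dimensional Hermitian space;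
* `notMin_block` : `SU_{n-1}(q)`; `notMin_even` : `SL_m(q²)`, `n = 2 m`; `notMin_comp` : `SU_k(q ^ m)`, `n = k m` odd.
-/

set_option autoImplicit false
set_option linter.unusedSectionVars false

namespace Cfsg.Agent.H151.PQR

open Cfsg Matrix
open Cfsg.Agent.H948.UBase Cfsg.Agent.H948.UProd Cfsg.Agent.H948.UTorus
open Cfsg.Agent.LieClassical.HermBasic
open Cfsg.Agent.ClassicalGeometry.PSUAutBasic (pr pr_eq_one_iff)
open Cfsg.Agent.H562.PQR (NotMin)

universe u

section card

variable {F : Type} [Field F] [Fintype F] {n q : ℕ}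

theorem coprime_succ_pow (q j : ℕ) : Nat.Coprime q (q ^ (j + 1) + 1) := by
  rw [pow_succ', Nat.coprime_mul_left_add_right]
  exact Nat.coprime_one_right q

theorem coprime_pred_pow {q : ℕ} (hq : 1 ≤ q) (j : ℕ) : Nat.Coprime q (q ^ (j + 1) - 1) := by
  have h1 : 1 ≤ q ^ (j + 1) := Nat.one_le_pow _ _ hq
  have h2 : Nat.Coprime (q ^ (j + 1)) (q ^ (j + 1) - 1) := by
    have := Nat.coprime_self_sub_right h1
    rw [this]
    exact Nat.coprime_one_right _
  exact Nat.Coprime.coprime_dvd_left (dvd_pow_self q (by omega)) h2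

theorem pow_dvd_card (hF : Fintype.card F = q ^ 2) (hn : 2 ≤ n) : q ^ (n * (n - 1) / 2) ∣ Nat.card (PSU n F q) := by
  have h := Cfsg.Agent.H341.ThreeList.card_psu hF hn
  have h1 : Nat.Coprime (q ^ (n * (n - 1) / 2)) (Nat.gcd n (q + 1)) := by
    refine Nat.Coprime.pow_left _ ?_
    refine Nat.Coprime.coprime_dvd_right (Nat.gcd_dvd_right _ _) ?_
    have := coprime_succ_pow q 0
    rwa [zero_add, pow_one] at this
  exact h1.dvd_of_dvd_mul_left (h ▸ Dvd.intro _ rfl)

theorem not_surj (hF : Fintype.card F = q ^ 2) (hn : 2 ≤ n) {K : Type u} [Group K] [Finite K] {b M : ℕ}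
    (hK : Nat.card K = q ^ b * M) (hM : Nat.Coprime q M) (hb : b < n * (n - 1) / 2) (f : K →* PSU n F q) :
    ¬ Function.Surjective f := by
  intro hf
  have h1 := (pow_dvd_card hF hn).trans (Subgroup.card_dvd_of_surjective f hf)
  rw [hK] at h1
  have h2 := (Nat.Coprime.pow_left (n * (n - 1) / 2) hM).dvd_of_dvd_mul_right h1
  have h3 := (Nat.pow_dvd_pow_iff_le_right (two_le hF)).1 h2
  omega

theorem coprime_ph (hF : Fintype.card F = q ^ 2) (i : ℕ) : Nat.Coprime q (ph q i) := by
  have hq := two_le hF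
  unfold ph
  split_ifs
  · exact coprime_succ_pow q i
  · exact coprime_pred_pow (by omega) i

end card

section rep

variable {F : Type} [Field F] [Fintype F] {n q : ℕ}

/-- **a perfect group of isometries** -/
theorem notMin_rep {hF : Fintype.card F = q ^ 2} {V : Type*} [AddCommGroup V] [Module F V] [FiniteDimensional F V]
    {B : V →ₛₗ[cj hF] V →ₗ[F] F} (hB : IsHerm hF B) (hdim : Module.finrank F V = n) (hn : 3 ≤ n)
    {K : Type u} [Group K] [Finite K] (hperf : commutator K = ⊤) (ρ : K →* Module.End F V)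
    (hinj : Function.Injective ρ) (hiso : ∀ k, Iso B (ρ k)) [IsSimpleGroup (K ⧸ Subgroup.center K)]
    (hna : ∃ x y : K ⧸ Subgroup.center K, x * y ≠ y * x) {p : ℕ} (hp : p.Prime)
    (hd : p ∣ Nat.card (K ⧸ Subgroup.center K)) {b M : ℕ} (hK : Nat.card K = q ^ b * M) (hM : Nat.Coprime q M)
    (hb : b < n * (n - 1) / 2) : NotMin p (PSU n F q) := by
  obtain ⟨e, he⟩ := exists_coord hB hdim
  have hdet : ∀ k : K, LinearMap.det (ρ k) = 1 := by
    intro k
    have h1 : k ∈ commutator K := by rw [hperf]; exact Subgroup.mem_top k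
    have h2 := Abelianization.commutator_subset_ker ((LinearMap.det.comp ρ).toHomUnits) h1
    rw [MonoidHom.mem_ker] at h2
    exact congrArg Units.val h2
  let φ : K →* isoM B := ρ.codRestrict (isoM B) fun k => ⟨hiso k, hdet k⟩
  refine NotMin.of_hom hna hp hd ((pr n F q).comp ((suHom e he).comp φ)) (QuotientGroup.mk' (Subgroup.center K))
    (QuotientGroup.mk'_surjective _) ?_ (not_surj hF (by omega) hK hM hb _)
  intro k hk
  rw [MonoidHom.mem_ker] at hk
  have h1 : IsScal (ρ k) := (pr_suHom_eq_one_iff hn e he (φ k)).1 hk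
  obtain ⟨c, hc⟩ := h1
  rw [QuotientGroup.ker_mk', Subgroup.mem_center_iff]
  intro g
  apply hinj
  rw [map_mul, map_mul]
  refine LinearMap.ext fun v => ?_
  rw [Module.End.mul_apply, Module.End.mul_apply, hc, hc, map_smul]

end rep

section block

variable {F : Type} [Field F] [Fintype F] {n q : ℕ}

/-- `SU_{m}(q) → PSU_{m+1}(q)` -/
theorem notMin_block (hF : Fintype.card F = q ^ 2) {m : ℕ} (hm : 3 ≤ m) (h32 : ¬ (m = 3 ∧ q = 2))
    (hna : ∃ x y : PSU m F q, x * y ≠ y * x) {p : ℕ} (hp : p.Prime) (hd : p ∣ Nat.card (PSU m F q)) :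
    NotMin p (PSU (m + 1) F q) := by
  have : IsSimpleGroup (PSU m F q) := Cfsg.Agent.S0283.result hF m hm h32
  refine NotMin.of_hom hna hp hd (Cfsg.Agent.H341.ThreeElts.psuEmb hF 0 (by omega)) (QuotientGroup.mk' _)
    (QuotientGroup.mk'_surjective _) ?_ ?_
  · rw [(MonoidHom.ker_eq_bot_iff _).2 (Cfsg.Agent.H341.ThreeElts.psuEmb_injective hF 0 (by omega) (by omega) (by omega))]
    exact bot_le
  · refine not_surj hF (by omega) (card_SU hF (by omega)) ?_ ?_ _
    · exact Nat.Coprime.prod_right fun i _ => coprime_ph hF _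
    · have h1 : m * (m - 1) / 2 + m = (m + 1) * (m + 1 - 1) / 2 := by
        obtain ⟨k, rfl⟩ : ∃ k, m = k + 1 := ⟨m - 1, by omega⟩
        rw [Nat.add_sub_cancel, Nat.add_sub_cancel, show (k + 1 + 1) * (k + 1) = (k + 1) * k + (k + 1) * 2 by ring,
          Nat.add_mul_div_right _ _ (by norm_num)]
      omega

end block

end Cfsg.Agent.H151.PQR
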