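import Cfsg.Agent.ClassicalGeometry.PSUAutBasic
import Cfsg.Agent.Phan.Ext

/-!
# Elements of `SU n F q` with `n` distinct eigenvalues (helper151)

* `eq_one_of_distinct` : an `r`-element commuting with a matrix with `n` distinct eigenvalues is trivial;
* `unitary_root` : the eigenvalues of a unitary matrix are closed under `μ ↦ μ ^ (-q)`;
* `distinct_of_order` : an element of prime order `p`, `-q` of order `n` modulo `p`, has `n` distinct eigenvalues;
* **`not_dvd_centralizer`** : `r ∤ |C(x)|` in `PSU n F q` for an element with `n` distinct eigenvalues.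
-/

set_option autoImplicit false
set_option linter.unusedSectionVars false

namespace Cfsg.Agent.H151.PQR

open Cfsg Matrix Polynomial
open Cfsg.Agent.LieClassical.HermBasic
open Cfsg.Agent.Phan (mat mat_mul mat_one mat_inj mat_isom)
open Cfsg.Agent.ClassicalGeometry.PSUAutBasic (pr eq_one_of_center_of_pow exists_lift pr_surjective)

section Mat

variable {F : Type*} [Field F] {k : Type*} [Field k] [Algebra F k] {n : ℕ}

/-- `y` has (at least) `n` distinct eigenvalues in `k` -/
def Dist (k : Type*) [Field k] [Algebra F k] (y : Matrix (Fin n) (Fin n) F) : Prop :=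
  ∃ S : Finset k, n ≤ S.card ∧ ∀ μ ∈ S, (y.charpoly.map (algebraMap F k)).IsRoot μ

theorem exists_eigen {y : Matrix (Fin n) (Fin n) F} {μ : k} (h : (y.charpoly.map (algebraMap F k)).IsRoot μ) :
    ∃ v : Fin n → k, v ≠ 0 ∧ (y.map (algebraMap F k)) *ᵥ v = μ • v := by
  have h1 : Module.End.HasEigenvalue (Matrix.toLin' (y.map (algebraMap F k))) μ := by
    rw [Module.End.hasEigenvalue_iff_isRoot_charpoly, Matrix.charpoly_toLin']
    rwa [Matrix.charpoly_map]
  obtain ⟨v, hv⟩ := h1.exists_hasEigenvector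
  exact ⟨v, hv.2, by
    have := hv.apply_eq_smul
    rwa [Matrix.toLin'_apply] at this⟩

theorem root_of_eigen {y : Matrix (Fin n) (Fin n) F} {μ : k} {v : Fin n → k} (hv : v ≠ 0)
    (h : (y.map (algebraMap F k)) *ᵥ v = μ • v) : (y.charpoly.map (algebraMap F k)).IsRoot μ := by
  have h1 : Module.End.HasEigenvector (Matrix.toLin' (y.map (algebraMap F k))) μ v :=
    Module.End.hasEigenvector_iff.2 ⟨Module.End.mem_eigenspace_iff.2 (by rw [Matrix.toLin'_apply, h]), hv⟩
  have h2 := Module.End.hasEigenvalue_of_hasEigenvector h1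
  rw [Module.End.hasEigenvalue_iff_isRoot_charpoly, Matrix.charpoly_toLin'] at h2
  rwa [Matrix.charpoly_map] at h2

theorem eq_one_of_distinct {r : ℕ} [Fact r.Prime] [CharP k r] {y g : Matrix (Fin n) (Fin n) F} (hy : Dist k y)
    (hyg : y * g = g * y) {t : ℕ} (hg : g ^ r ^ t = 1) : g = 1 := by
  classical
  obtain ⟨S, hS, hroot⟩ := hy
  set A := algebraMap F k with hA
  have hex : ∀ μ : S, ∃ v : Fin n → k, v ≠ 0 ∧ (y.map A) *ᵥ v = (μ : k) • v := fun μ => exists_eigen (hroot μ μ.2)
  choose v hv0 hv using hex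
  have hli : LinearIndependent k v := by
    refine Module.End.eigenvectors_linearIndependent' (Matrix.toLin' (y.map A)) (fun μ : S => (μ : k))
      Subtype.val_injective v fun μ => ?_
    exact Module.End.hasEigenvector_iff.2 ⟨Module.End.mem_eigenspace_iff.2 (by rw [Matrix.toLin'_apply, hv]), hv0 μ⟩
  have hcard : Fintype.card S = Module.finrank k (Fin n → k) := by
    refine le_antisymm hli.fintype_card_le_finrank ?_
    rw [Module.finrank_fin_fun, Fintype.card_coe]
    exact hS
  by_cases hn : n = 0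
  · subst hn
    ext i
    exact i.elim0
  have hne : Nonempty S := by
    rw [← Fintype.card_pos_iff, hcard, Module.finrank_fin_fun]
    omega
  let b := basisOfLinearIndependentOfCardEqFinrank hli hcard
  have hb : ∀ μ, b μ = v μ := fun μ => by
    rw [coe_basisOfLinearIndependentOfCardEqFinrank]
  have hcomm : ∀ w : Fin n → k, (y.map A) *ᵥ ((g.map A) *ᵥ w) = (g.map A) *ᵥ ((y.map A) *ᵥ w) := by
    intro w
    rw [Matrix.mulVec_mulVec, Matrix.mulVec_mulVec, ← Matrix.map_mul, ← Matrix.map_mul, hyg]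
  -- the coordinates of `y w`
  have hrep : ∀ (w : Fin n → k) (ν : S), b.repr ((y.map A) *ᵥ w) ν = (ν : k) * b.repr w ν := by
    intro w ν
    have h1 : (y.map A) *ᵥ w = ∑ μ, (b.repr w μ * (μ : k)) • b μ := by
      conv_lhs => rw [← b.sum_repr w]
      rw [Matrix.mulVec_sum]
      refine Finset.sum_congr rfl fun μ _ => ?_
      rw [Matrix.mulVec_smul, hb, hv, smul_smul]
    rw [h1, b.repr_sum_self, mul_comm]
  have hfix : ∀ μ : S, (g.map A) *ᵥ (v μ) = v μ := by
    intro μ
    have h1 : ∀ ν : S, ν ≠ μ → b.repr ((g.map A) *ᵥ (v μ)) ν = 0 := by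
      intro ν hν
      have h2 := hrep ((g.map A) *ᵥ (v μ)) ν
      rw [hcomm, hv, Matrix.mulVec_smul, map_smul, Finsupp.smul_apply, smul_eq_mul] at h2
      have h3 : ((μ : k) - (ν : k)) * b.repr ((g.map A) *ᵥ (v μ)) ν = 0 := by rw [sub_mul, h2, sub_self]
      refine (mul_eq_zero.1 h3).resolve_left fun h4 => hν ?_
      exact Subtype.ext (sub_eq_zero.1 h4).symm
    set c := b.repr ((g.map A) *ᵥ (v μ)) μ with hc
    have h2 : (g.map A) *ᵥ (v μ) = c • v μ := by
      conv_lhs => rw [← b.sum_repr ((g.map A) *ᵥ (v μ))]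
      rw [Finset.sum_eq_single μ (fun ν _ hν => by rw [h1 ν hν, zero_smul])
        (fun h => absurd (Finset.mem_univ _) h), hb]
    have h3 : ∀ j : ℕ, ((g.map A) ^ j) *ᵥ (v μ) = c ^ j • v μ := by
      intro j
      induction j with
      | zero => rw [pow_zero, pow_zero, Matrix.one_mulVec, one_smul]
      | succ j ih => rw [pow_succ, ← Matrix.mulVec_mulVec, h2, Matrix.mulVec_smul, ih, smul_smul, pow_succ, mul_comm]
    have h4 : c ^ r ^ t = 1 := by
      have h5 := h3 (r ^ t)
      have h6 : (g.map A) ^ r ^ t = 1 := by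
        have h7 := congrArg (fun M : Matrix (Fin n) (Fin n) F => M.map A) hg
        have h8 : (g ^ r ^ t).map A = (g.map A) ^ r ^ t := map_pow (A.mapMatrix) g _
        change (g ^ r ^ t).map A = (1 : Matrix (Fin n) (Fin n) F).map A at h7
        rw [h8, Matrix.map_one A (map_zero A) (map_one A)] at h7
        exact h7
      rw [h6, Matrix.one_mulVec] at h5
      have h9 : (1 : k) • v μ = c ^ r ^ t • v μ := by rw [one_smul]; exact h5
      exact (smul_left_injective k (hv0 μ) h9).symm
    have h5 : c = 1 := by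
      have h6 : (c - 1) ^ r ^ t = 0 := by rw [sub_pow_char_pow, h4, one_pow, sub_self]
      exact sub_eq_zero.1 (eq_zero_of_pow_eq_zero h6)
    rw [h2, h5, one_smul]
  have hg1 : g.map A = 1 := by
    have h1 : Matrix.toLin' (g.map A) = LinearMap.id := b.ext fun μ => by
      rw [hb, Matrix.toLin'_apply, hfix]; rfl
    have h2 := congrArg LinearMap.toMatrix' h1
    rwa [LinearMap.toMatrix'_toLin', LinearMap.toMatrix'_id] at h2
  have hinj : Function.Injective (fun M : Matrix (Fin n) (Fin n) F => M.map A) :=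
    Matrix.map_injective (algebraMap F k).injective
  apply hinj
  change g.map A = (1 : Matrix (Fin n) (Fin n) F).map A
  rw [hg1, Matrix.map_one A (map_zero A) (map_one A)]

end Mat

section SU

variable {F : Type*} [Field F] [Fintype F] {n q : ℕ}

/-- the inverse of a unitary matrix -/
theorem conj_transpose_mul (hF : Fintype.card F = q ^ 2) (g : SU n F q) :
    ((mat g).map (conj hF))ᵀ * mat g = 1 := by
  have h1 : (mat g)ᵀ * (mat g).map (conj hF) = 1 := by
    ext i j
    have h2 := mat_isom g (Pi.single i 1) (Pi.single j 1)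
    rw [herm_single_left, one_mul] at h2
    rw [Matrix.mul_apply, Matrix.one_apply]
    have h3 : ∀ l, (mat g)ᵀ i l * (mat g).map (conj hF) l j = (mat g *ᵥ Pi.single i 1) l * (mat g *ᵥ Pi.single j 1) l ^ q := by
      intro l
      rw [Matrix.mulVec_single_one, Matrix.mulVec_single_one]
      rfl
    rw [Finset.sum_congr rfl fun l _ => h3 l]
    have h4 : hermForm n F q (mat g *ᵥ Pi.single i 1) (mat g *ᵥ Pi.single j 1) =
        ∑ l, (mat g *ᵥ Pi.single i 1) l * (mat g *ᵥ Pi.single j 1) l ^ q := rfl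
    rw [← h4, h2]
    by_cases hij : i = j
    · subst hij
      rw [if_pos rfl, Pi.single_eq_same, one_pow]
    · rw [if_neg hij, Pi.single_eq_of_ne hij, zero_pow_q hF]
  have h2 := congrArg Matrix.transpose h1
  rwa [Matrix.transpose_mul, Matrix.transpose_transpose, Matrix.transpose_one] at h2

variable {k : Type*} [Field k] [Algebra F k]

/-- the eigenvalues of a unitary matrix are closed under `μ ↦ μ ^ (-q)` -/
theorem unitary_root (hF : Fintype.card F = q ^ 2) (g : SU n F q) {μ : k} (h : ((mat g).charpoly.map (algebraMap F k)).IsRoot μ) :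
    μ ≠ 0 ∧ ((mat g).charpoly.map (algebraMap F k)).IsRoot (μ ^ q)⁻¹ := by
  obtain ⟨r, e, hr, hchar, hq, he⟩ := exists_prime_pow hF
  have : Fact r.Prime := ⟨hr⟩
  have hck : CharP k r := charP_of_injective_algebraMap (algebraMap F k).injective r
  have : ExpChar k r := ExpChar.prime hr
  set A := algebraMap F k with hA
  let φ : k →+* k := iterateFrobenius k r e
  have hφ : ∀ x : k, φ x = x ^ q := fun x => by rw [hq]; exact iterateFrobenius_def _ _ _
  set N := ((mat g).map (conj hF))ᵀ with hN
  have hNM : N * mat g = 1 := conj_transpose_mul hF g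
  have hMN : mat g * N = 1 := mul_eq_one_comm.1 hNM
  have hroot : (N.charpoly.map A).IsRoot (μ ^ q) := by
    have h1 : N.charpoly = (mat g).charpoly.map (conj hF : F →+* F) := by
      rw [hN, Matrix.charpoly_transpose]
      exact Matrix.charpoly_map (mat g) (conj hF : F →+* F)
    have h2 : (N.charpoly.map A) = ((mat g).charpoly.map A).map φ := by
      rw [h1, Polynomial.map_map, Polynomial.map_map]
      congr 1
      ext x
      change A (x ^ q) = φ (A x)
      rw [map_pow, hφ]
    rw [h2, ← hφ]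
    change eval (φ μ) (((mat g).charpoly.map A).map φ) = 0
    rw [Polynomial.eval_map, Polynomial.eval₂_at_apply, h.eq_zero, map_zero]
  obtain ⟨w, hw0, hw⟩ := exists_eigen hroot
  have h1 : w = μ ^ q • ((mat g).map A *ᵥ w) := by
    have h2 : (mat g).map A *ᵥ ((N.map A) *ᵥ w) = w := by
      rw [Matrix.mulVec_mulVec, ← Matrix.map_mul, hMN, Matrix.map_one A (map_zero A) (map_one A), Matrix.one_mulVec]
    rw [hw, Matrix.mulVec_smul] at h2
    exact h2.symm
  have hμ : μ ^ q ≠ 0 := by
    intro h0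
    rw [h0, zero_smul] at h1
    exact hw0 h1
  refine ⟨fun h0 => hμ (by rw [h0, zero_pow (q_pos hF).ne']), root_of_eigen hw0 ?_⟩
  rw [eq_inv_smul_iff₀ hμ]
  exact h1.symm

/-- an eigenvalue `≠ 1` of a matrix of order `p` -/
theorem exists_root_ne [IsAlgClosed k] {m : ℕ} {p : ℕ} (hpk : (p : k) ≠ 0) {M : Matrix (Fin m) (Fin m) F}
    (hM : M ^ p = 1) (hM1 : M ≠ 1) :
    ∃ μ : k, (M.charpoly.map (algebraMap F k)).IsRoot μ ∧ μ ^ p = 1 ∧ μ ≠ 1 := by
  set A := algebraMap F k with hA
  let f : Module.End k (Fin m → k) := Matrix.toLin' (M.map A)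
  have hfp : f ^ p = 1 := by
    have h1 : (M.map A) ^ p = 1 := by
      have h2 : (M ^ p).map A = (M.map A) ^ p := map_pow (A.mapMatrix) M _
      rw [← h2, hM]
      exact Matrix.map_one A (map_zero A) (map_one A)
    have h3 : f ^ p = Matrix.toLin' ((M.map A) ^ p) := by
      exact (Matrix.toLin'_pow (M.map A) p).symm
    rw [h3, h1, Matrix.toLin'_one]
    rfl
  have hf1 : f ≠ 1 := by
    intro h
    apply hM1
    have h2 := congrArg LinearMap.toMatrix' h
    change LinearMap.toMatrix' (Matrix.toLin' (M.map A)) = LinearMap.toMatrix' LinearMap.id at h2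
    rw [LinearMap.toMatrix'_toLin', LinearMap.toMatrix'_id] at h2
    have hinj : Function.Injective (fun M : Matrix (Fin m) (Fin m) F => M.map A) :=
      Matrix.map_injective (algebraMap F k).injective
    apply hinj
    change M.map A = (1 : Matrix (Fin m) (Fin m) F).map A
    rw [h2, Matrix.map_one A (map_zero A) (map_one A)]
  let H : Module.End k (Fin m → k) := ∑ i ∈ Finset.range p, f ^ i
  have hH : H * (f - 1) = 0 := by
    change (∑ i ∈ Finset.range p, f ^ i) * (f - 1) = 0
    rw [geom_sum_mul, hfp, sub_self]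
  have hcomm : Commute f H := Commute.sum_right _ _ _ fun i _ => (Commute.refl f).pow_right i
  let W : Submodule k (Fin m → k) := LinearMap.ker H
  have hW : ∀ w ∈ W, f w ∈ W := by
    intro w hw
    change H (f w) = 0
    have h1 : H (f w) = f (H w) := by
      have := congrArg (fun g : Module.End k (Fin m → k) => g w) hcomm.eq
      exact this.symm
    rw [h1, show H w = 0 from hw, map_zero]
  have hWn : Nontrivial W := by
    obtain ⟨v, hv⟩ : ∃ v, (f - 1) v ≠ 0 := by
      by_contra hcon
      push Not at hcon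
      apply hf1
      rw [← sub_eq_zero]
      exact LinearMap.ext hcon
    have h1 : (f - 1) v ∈ W := by
      change H ((f - 1) v) = 0
      exact congrArg (fun g : Module.End k (Fin m → k) => g v) hH
    exact ⟨⟨⟨_, h1⟩, 0, fun h => hv (congrArg Subtype.val h)⟩⟩
  obtain ⟨μ, hμ⟩ := Module.End.exists_eigenvalue (f.restrict hW : Module.End k W)
  obtain ⟨w, hw⟩ := hμ.exists_hasEigenvector
  have hfw : f (w : Fin m → k) = μ • (w : Fin m → k) := congrArg Subtype.val hw.apply_eq_smul
  have hw0 : (w : Fin m → k) ≠ 0 := fun h => hw.2 (Subtype.ext h)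
  have hpow : ∀ i : ℕ, (f ^ i) (w : Fin m → k) = μ ^ i • (w : Fin m → k) := by
    intro i
    induction i with
    | zero => rw [pow_zero, pow_zero, one_smul]; rfl
    | succ i ih => rw [pow_succ, Module.End.mul_apply, hfw, map_smul, ih, smul_smul, pow_succ, mul_comm]
  have hsum : ∑ i ∈ Finset.range p, μ ^ i = 0 := by
    have h1 : H (w : Fin m → k) = 0 := w.2
    have h2 : H (w : Fin m → k) = (∑ i ∈ Finset.range p, μ ^ i) • (w : Fin m → k) := by
      change (∑ i ∈ Finset.range p, f ^ i) (w : Fin m → k) = _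
      rw [LinearMap.sum_apply, Finset.sum_smul]
      exact Finset.sum_congr rfl fun i _ => hpow i
    rw [h2] at h1
    exact (smul_eq_zero.1 h1).resolve_right hw0
  refine ⟨μ, root_of_eigen hw0 (by rw [← Matrix.toLin'_apply]; exact hfw), ?_, ?_⟩
  · have h1 := hpow p
    rw [hfp, Module.End.one_apply] at h1
    have h9 : (1 : k) • (w : Fin m → k) = μ ^ p • (w : Fin m → k) := by rw [one_smul]; exact h1
    exact (smul_left_injective k hw0 h9).symm
  · rintro rfl
    simp only [one_pow, Finset.sum_const, Finset.card_range, nsmul_eq_mul, mul_one] at hsum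
    exact hpk hsum

/-- an element of prime order `p`, `-q` of order at least `n` modulo `p`: distinct eigenvalues -/
theorem distinct_of_order [IsAlgClosed k] (hF : Fintype.card F = q ^ 2) {p : ℕ} (hp : p.Prime) (hpq : ¬ p ∣ q)
    (hord : ∀ i, 0 < i → i < n → ¬ (p : ℤ) ∣ (-(q : ℤ)) ^ i - 1) {g : SU n F q} (hg : g ^ p = 1) (hg1 : g ≠ 1) :
    ∃ S : Finset k, S.card = n ∧ ∀ μ ∈ S, ((mat g).charpoly.map (algebraMap F k)).IsRoot μ ∧ μ ≠ 1 := by
  classical
  have hpk : (p : k) ≠ 0 := by
    obtain ⟨r, e, hr, hchar, hq, he⟩ := exists_prime_pow hF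
    have hck : CharP k r := charP_of_injective_algebraMap (algebraMap F k).injective r
    rw [Ne, CharP.cast_eq_zero_iff k r]
    intro h
    rw [Nat.prime_dvd_prime_iff_eq hr hp] at h
    subst h
    exact hpq (by rw [hq]; exact dvd_pow_self _ he.ne')
  have hmp : ∀ i : ℕ, mat (g ^ i) = mat g ^ i := by
    intro i
    induction i with
    | zero => rw [pow_zero, pow_zero, mat_one]
    | succ i ih => rw [pow_succ, mat_mul, ih, pow_succ]
  obtain ⟨μ, hμ, hμp, hμ1⟩ := exists_root_ne (k := k) hpk (M := mat g) (by rw [← hmp, hg, mat_one])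
    fun h => hg1 (mat_inj (by rw [h, mat_one]))
  have hμ0 := (unitary_root hF g hμ).1
  let u : kˣ := Units.mk0 μ hμ0
  have hup : u ^ p = 1 := Units.ext (by rw [Units.val_pow_eq_pow_val, Units.val_mk0, hμp, Units.val_one])
  have hu1 : u ≠ 1 := fun h => hμ1 (congrArg Units.val h)
  have : Fact p.Prime := ⟨hp⟩
  have huo : orderOf u = p := orderOf_eq_prime hup hu1
  have hroot : ∀ i : ℕ, ((mat g).charpoly.map (algebraMap F k)).IsRoot ((u ^ ((-(q : ℤ)) ^ i) : kˣ) : k) := by
    intro i
    induction i with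
    | zero => rw [pow_zero, zpow_one]; exact hμ
    | succ i ih =>
      have h1 := (unitary_root hF g ih).2
      have h2 : ((u ^ ((-(q : ℤ)) ^ (i + 1)) : kˣ) : k) = (((u ^ ((-(q : ℤ)) ^ i) : kˣ) : k) ^ q)⁻¹ := by
        rw [← Units.val_pow_eq_pow_val, ← Units.val_inv_eq_inv_val]
        congr 1
        rw [pow_succ, _root_.zpow_mul, _root_.zpow_neg, _root_.zpow_natCast]
      rw [h2]
      exact h1
  have hinj : ∀ i j : ℕ, i < n → j < n → i < j → u ^ ((-(q : ℤ)) ^ i) ≠ u ^ ((-(q : ℤ)) ^ j) := by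
    intro i j _ hj hij h
    rw [eq_comm, ← mul_inv_eq_one, ← _root_.zpow_neg, ← _root_.zpow_add, ← orderOf_dvd_iff_zpow_eq_one, huo] at h
    have h2 : (-(q : ℤ)) ^ j + -(-(q : ℤ)) ^ i = (-(q : ℤ)) ^ i * ((-(q : ℤ)) ^ (j - i) - 1) := by
      rw [mul_sub, ← pow_add, Nat.add_sub_cancel' hij.le, mul_one, sub_eq_add_neg]
    rw [h2] at h
    have hpi : Prime (p : ℤ) := Nat.prime_iff_prime_int.1 hp
    rcases hpi.dvd_or_dvd h with h3 | h3
    · have h4 := hpi.dvd_of_dvd_pow h3
      rw [dvd_neg] at h4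
      exact hpq (Int.natCast_dvd_natCast.1 h4)
    · exact hord (j - i) (by omega) (by omega) h3
  refine ⟨(Finset.range n).image fun i => ((u ^ ((-(q : ℤ)) ^ i) : kˣ) : k), ?_, ?_⟩
  · rw [Finset.card_image_of_injOn, Finset.card_range]
    intro i hi j hj hij
    rw [Finset.coe_range, Set.mem_Iio] at hi hj
    by_contra hne
    rcases lt_or_gt_of_ne hne with h | h
    · exact hinj i j hi hj h (Units.ext hij)
    · exact hinj j i hj hi h (Units.ext hij).symm
  · intro ν hν
    obtain ⟨i, -, rfl⟩ := Finset.mem_image.1 hν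
    refine ⟨hroot i, fun h => ?_⟩
    have h1 : u ^ ((-(q : ℤ)) ^ i) = 1 := Units.ext h
    rw [← orderOf_dvd_iff_zpow_eq_one, huo] at h1
    have hpi : Prime (p : ℤ) := Nat.prime_iff_prime_int.1 hp
    have h4 := hpi.dvd_of_dvd_pow h1
    rw [dvd_neg] at h4
    exact hpq (Int.natCast_dvd_natCast.1 h4)

/-- **the centraliser in `PSU n F q`** -/
theorem not_dvd_centralizer (hF : Fintype.card F = q ^ 2) (hn : 3 ≤ n) {r : ℕ} [Fact r.Prime] [CharP F r]
    {x : SU n F q} (hx : Dist k (mat x)) :
    ¬ r ∣ Nat.card ↥(Subgroup.centralizer ({pr n F q x} : Set (PSU n F q))) := by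
  intro hd
  have hck : CharP k r := charP_of_injective_algebraMap (algebraMap F k).injective r
  obtain ⟨⟨g', hg'⟩, hgr⟩ := exists_prime_orderOf_dvd_card' r hd
  have hgr' : g' ^ r ^ 1 = 1 := by
    rw [pow_one, ← hgr]
    have := pow_orderOf_eq_one (⟨g', hg'⟩ : ↥(Subgroup.centralizer ({pr n F q x} : Set (PSU n F q))))
    exact congrArg Subtype.val this
  obtain ⟨a, ha, l, hl⟩ := exists_lift hF hn hgr'
  have hcomm : pr n F q (a * x * a⁻¹ * x⁻¹) = 1 := by
    have h1 := Subgroup.mem_centralizer_singleton_iff.1 hg'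
    rw [map_mul, map_mul, map_mul, map_inv, map_inv, ha, h1]
    group
  set z := a * x * a⁻¹ * x⁻¹ with hz
  have hzc : z ∈ Subgroup.center (SU n F q) := (QuotientGroup.eq_one_iff z).1 hcomm
  have hzc' : ∀ b, b * z = z * b := Subgroup.mem_center_iff.1 hzc
  have hj : ∀ j : ℕ, a ^ j * x = z ^ j * x * a ^ j := by
    intro j
    induction j with
    | zero => simp
    | succ j ih =>
      have h1 : a * x = z * x * a := by rw [hz]; group
      have h2 : a ^ j * z = z * a ^ j := hzc' _
      calc a ^ (j + 1) * x = a ^ j * (a * x) := by rw [pow_succ, mul_assoc]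
        _ = (a ^ j * z) * x * a := by rw [h1]; group
        _ = z * (a ^ j * x) * a := by rw [h2]; group
        _ = z ^ (j + 1) * x * a ^ (j + 1) := by rw [ih, pow_succ' z, pow_succ a]; group
  have hz1 : z = 1 := by
    refine eq_one_of_center_of_pow hF hn (p := r) hzc (k := l) ?_
    have h1 := hj (r ^ l)
    rw [hl, one_mul, mul_one] at h1
    exact mul_right_cancel (b := x) (by rw [one_mul]; exact h1.symm)
  have hax : x * a = a * x := by
    have h1 : a * x = z * x * a := by rw [hz]; group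
    rw [h1, hz1, one_mul]
  have ha1 : mat a = 1 := by
    have hmp : ∀ i : ℕ, mat (a ^ i) = mat a ^ i := by
      intro i
      induction i with
      | zero => rw [pow_zero, pow_zero, mat_one]
      | succ i ih => rw [pow_succ, mat_mul, ih, pow_succ]
    refine eq_one_of_distinct (k := k) (r := r) (t := l) hx ?_ ?_
    · rw [← mat_mul, ← mat_mul, hax]
    · rw [← hmp, hl, mat_one]
  have ha2 : a = 1 := mat_inj (by rw [ha1, mat_one])
  have h3 : g' = 1 := by rw [← ha, ha2, map_one]
  have h4 : orderOf (⟨g', hg'⟩ : ↥(Subgroup.centralizer ({pr n F q x} : Set (PSU n F q)))) = 1 := by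
    rw [orderOf_eq_one_iff]
    exact Subtype.ext h3
  rw [h4] at hgr
  exact (Fact.out : r.Prime).one_lt.ne hgr

end SU

end Cfsg.Agent.H151.PQR
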