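import Cfsg.Agent.H562.PQR.GowRoot
import Cfsg.Agent.H424.U33Classes
import Cfsg.Agent.LieClassical.FieldTransfer
import Cfsg.Agent.LieClassical.HermBasic
import Cfsg.Agent.S2089
import Cfsg.Agent.S0280

/-!
# `U_3(3)` : the triple `(7, 2, 3)` (helper151, for S3988)
-/

set_option autoImplicit false

namespace Cfsg.Agent.H151.PQR

open Cfsg Matrix
open Cfsg.Agent.H562.PQR
open Cfsg.Agent.H80.Fpf (MultDvd IsCover)
open Cfsg.Agent.H424.U33Classes Cfsg.Agent.Classification.RTwo.UThreeThree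

theorem MultDvd.congr {S T : Type*} [Group S] [Group T] {m : ℕ} (e : S ≃* T) (h : MultDvd T m) : MultDvd S m := by
  intro G _ _ π hπ
  have h0 := h G _ (hπ.equiv_comp e)
  have h1 : (e.toMonoidHom.comp π).ker = π.ker := by
    ext g
    rw [MonoidHom.mem_ker, MonoidHom.mem_ker]
    constructor
    · intro hg
      apply e.injective
      rw [map_one]
      exact hg
    · intro hg
      show e (π g) = 1
      rw [hg, map_one]
  rwa [h1] at h0

/-- the centraliser of an element of order `m`, if of order at most `m` -/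
theorem card_centralizer_eq {G : Type*} [Group G] [Finite G] {x : G} {m : ℕ} (ho : orderOf x = m)
    (h : Nat.card (Subgroup.centralizer ({x} : Set G)) ≤ m) : Nat.card (Subgroup.centralizer ({x} : Set G)) = m := by
  apply le_antisymm h
  have h1 : Subgroup.zpowers x ≤ Subgroup.centralizer ({x} : Set G) := by
    rw [Subgroup.zpowers_le]
    exact Subgroup.mem_centralizer_singleton_iff.2 rfl
  have h2 := Subgroup.card_dvd_of_le h1
  rw [Nat.card_zpowers, ho] at h2
  exact Nat.le_of_dvd Nat.card_pos h2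

theorem x8_four : good8.su ^ 2 ^ 2 ≠ 1 := by
  intro h
  have h0 : good8.su * good8.su * good8.su * good8.su = 1 := by
    rw [← h, show 2 ^ 2 = 4 by norm_num]
    simp only [pow_succ, pow_zero, one_mul]
  have h1 : x8 * x8 * x8 * x8 = 1 := congrArg Classification.RTwo.UThreeThree.mt h0
  revert h1
  decide +kernel

/-- **the triple of `U_3(3)`** -/
theorem trip_u33 {F : Type} [Field F] [Fintype F] (hF : Fintype.card F = 9) : TripABC 7 2 3 (PSU 3 F 3) := by
  let e1 : F ≃+* K9 := (FiniteField.ringEquivOfCardEq (K := F) (K' := K9) (by rw [hF, card_k9]))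
  let e : SU 3 K9 3 ≃* PSU 3 F 3 := (psuEquiv card_k9).symm.trans (LieClassical.FieldTransfer.psuCongr 3 3 e1).symm
  have h3 : Fact (Nat.Prime 3) := ⟨Nat.prime_three⟩
  have h7 : Fact (Nat.Prime 7) := ⟨by norm_num⟩
  have h2 : Fact (Nat.Prime 2) := ⟨Nat.prime_two⟩
  have hcF : CharP K9 3 := by
    obtain ⟨p, k, hp, hchar, hk, hk0⟩ := LieClassical.HermBasic.exists_prime_pow card_k9'
    have h1 : p ∣ 3 := by rw [hk]; exact dvd_pow_self p hk0.ne'
    rw [(Nat.prime_dvd_prime_iff_eq hp Nat.prime_three).1 h1] at hchar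
    exact hchar
  have hG : IsLieTypeChar 3 (SU 3 K9 3) :=
    Or.inr (Or.inr (Or.inl ⟨K9, inferInstance, inferInstance, inferInstance, 3, 3, card_k9', le_rfl, by norm_num,
      ⟨(psuEquiv card_k9).symm⟩⟩))
  have ho7 : orderOf good7.su = 7 := orderOf_eq_prime x7_pow x7_ne
  have ho8 : orderOf good8.su = 2 ^ 3 := orderOf_eq_prime_pow x8_four x8_pow
  have hc7 := card_centralizer_eq ho7 card_x7
  have hc8 := card_centralizer_eq ho8 card_x8
  have hx : PE 7 good7.su := PE.of_orderOf h7.out ho7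
  have hy : PE 2 good8.su := ⟨fun h => by rw [h, orderOf_one] at ho8; norm_num at ho8, 3, ho8⟩
  obtain ⟨x, y, z, hx', hy', hz', hxyz⟩ := tri_char Nat.prime_three hG h7.out Nat.prime_two (by norm_num) hx hy
    (by rw [hc7]; norm_num) (by rw [hc8]; norm_num)
  have hm : MultDvd (SU 3 K9 3) (Nat.gcd 3 (3 + 1)) := by
    refine MultDvd.congr (psuEquiv card_k9).symm (Cfsg.Agent.H80.Fpf.multDvd_of_cyclic (by norm_num)
      (Cfsg.Agent.S2089.result 3 3 card_k9' le_rfl (by norm_num) ?_))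
    simp
  refine TripABC.congr e (TripABC.of_mult hm (fun s hs hd => ?_) h7.out Nat.prime_two Nat.prime_three (by norm_num)
    (by norm_num) (by norm_num) hx' hy' hz' hxyz)
  have h6 : Nat.gcd 3 (3 + 1) = 1 := by norm_num
  rw [h6] at hd
  exact absurd (Nat.dvd_one.1 hd) hs.one_lt.ne'

/-- **`U_3(3)`** -/
theorem row_u33 {F : Type} [Field F] [Fintype F] (hF : Fintype.card F = 9) : RowOdd (PSU 3 F 3) := by
  intro p hp hp2 hd
  right
  have hF' : Fintype.card F = 3 ^ 2 := by rw [hF]; norm_num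
  have h := Cfsg.Agent.S0280.result (F := F) hF' 3 (by norm_num)
  have h0 : (3 : ℕ) ^ (3 * (3 - 1) / 2) * ∏ i ∈ Finset.range 3, (if Even i then 3 ^ (i + 1) + 1 else 3 ^ (i + 1) - 1) =
      4 * 6048 := by decide
  rw [h0] at h
  have h1 : Nat.card (PSU 3 F 3) = 6048 := by
    have h2 : Nat.gcd 3 (3 + 1) = 1 := by norm_num
    rw [h2] at h
    omega
  rw [h1, show 6048 = 2 ^ 5 * (3 ^ 3 * 7) by norm_num] at hd
  have hp' : p = 3 ∨ p = 7 := by
    rcases (Nat.Prime.dvd_mul hp).1 hd with h2 | h2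
    · exact absurd ((Nat.prime_dvd_prime_iff_eq hp Nat.prime_two).1 (hp.dvd_of_dvd_pow h2)) hp2
    rcases (Nat.Prime.dvd_mul hp).1 h2 with h3 | h3
    · exact Or.inl ((Nat.prime_dvd_prime_iff_eq hp Nat.prime_three).1 (hp.dvd_of_dvd_pow h3))
    · exact Or.inr ((Nat.prime_dvd_prime_iff_eq hp (by norm_num)).1 h3)
  refine ⟨7, 2, 3, ?_, Or.inr (Or.inl rfl), trip_u33 hF⟩
  omega

end Cfsg.Agent.H151.PQR
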