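import Cfsg.Agent.H151.PQR.Arith
import Cfsg.Agent.H900.PQR.Psl
import Cfsg.Agent.H151.PQR.U33
import Cfsg.Agent.H322.Cent.Uni
import Cfsg.Agent.S2089

/-!
# The rows `PSU n F q` of S3988 (helper151)
-/

set_option autoImplicit false
set_option linter.unusedSectionVars false

namespace Cfsg.Agent.H151.PQR

open Cfsg Matrix
open Cfsg.Agent.H948.UProd
open Cfsg.Agent.LieClassical.HermBasic
open Cfsg.Agent.ClassicalGeometry.PSUAutBasic (pr)
open Cfsg.Agent.H562.PQR
open Cfsg.Agent.H900.PQR (nonab dvd_psl dvd_psl_of_dvd_q)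
open Cfsg.Agent.H80.Fpf (MultDvd)

section trip

variable {F : Type} [Field F] [Fintype F] {n q p r : ℕ}

theorem lie_psu [CharP F r] (hF : Fintype.card F = q ^ 2) (hn : 3 ≤ n) (h32 : ¬ (n = 3 ∧ q = 2)) :
    IsLieTypeChar r (PSU n F q) :=
  Or.inr (Or.inr (Or.inl ⟨F, inferInstance, inferInstance, inferInstance, n, q, hF, hn, h32, ⟨MulEquiv.refl _⟩⟩))

theorem lie_psl [CharP F r] {m : ℕ} (hm : 2 ≤ m) (h4 : 4 ≤ Fintype.card F) :
    IsLieTypeChar r (ProjectiveSpecialLinearGroup (Fin m) F) :=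
  Or.inl ⟨F, inferInstance, inferInstance, inferInstance, m, hm, fun _ => h4, ⟨MulEquiv.refl _⟩⟩

/-- from two regular elements to the triple -/
theorem trip_of [hr : Fact r.Prime] [CharP F r] (hF : Fintype.card F = q ^ 2) (hn : n.Prime) (hn3 : 3 ≤ n)
    (h32 : ¬ (n = 3 ∧ q = 2)) {a b : ℕ} (ha : a.Prime) (hb : b.Prime) (hab : a ≠ b) (ha2 : a ≠ 2) (hb2 : b ≠ 2)
    (hmul : b = n ∨ ¬ n ∣ q + 1) {x y : PSU n F q} (hx : PE a x) (hy : PE b y)
    (hxc : ¬ r ∣ Nat.card (Subgroup.centralizer ({x} : Set (PSU n F q))))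
    (hyc : ¬ r ∣ Nat.card (Subgroup.centralizer ({y} : Set (PSU n F q)))) :
    TripABC a b 2 (PSU n F q) := by
  have hG : IsLieTypeChar r (PSU n F q) := lie_psu hF hn3 h32
  have hm : MultDvd (PSU n F q) (Nat.gcd n (q + 1)) := by
    refine Cfsg.Agent.H80.Fpf.multDvd_of_cyclic (Nat.gcd_pos_of_pos_left _ (by omega)).ne'
      (Cfsg.Agent.S2089.result n q hF hn3 h32 ?_)
    have hodd : Odd n := hn.odd_of_ne_two (by omega)
    simp only [Set.mem_insert_iff, Set.mem_singleton_iff, Prod.mk.injEq, not_or]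
    refine ⟨?_, ?_, ?_⟩ <;> rintro ⟨h, -⟩ <;> subst h <;> revert hodd <;> decide
  have key : ∃ x y z : PSU n F q, PE a x ∧ PE b y ∧ PE 2 z ∧ x * y * z = 1 := by
    by_cases h2 : r = 2
    · subst h2
      exact tri_char hr.out hG ha hb hab hx hy hxc hyc
    · refine tri_reg hr.out hG Nat.prime_two (Ne.symm h2) ?_ hx hy hxc hyc
      refine Cfsg.Agent.H254.PSUn.dvd_card hF hn3 ?_
      obtain ⟨r', e, hr', hchar, hqr, he⟩ := exists_prime_pow hF
      have hrr : r' = r := CharP.eq F hchar ‹CharP F r›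
      have hodd : Odd q := by
        rw [hqr, hrr]
        exact (hr.out.odd_of_ne_two h2).pow
      exact (hodd.add_odd odd_one).two_dvd
  obtain ⟨x', y', z', h1, h2, h3, h4⟩ := key
  refine TripABC.of_mult hm (fun s hs hd => ?_) ha hb Nat.prime_two hab ha2 hb2 h1 h2 h3 h4
  have h5 : s = n := (Nat.prime_dvd_prime_iff_eq hs hn).1 (hd.trans (Nat.gcd_dvd_left _ _))
  rcases hmul with h7 | h7
  · exact Or.inr (Or.inr (Or.inl (h5.trans h7.symm)))
  · exact absurd (h5 ▸ hd.trans (Nat.gcd_dvd_right _ _)) h7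

end trip

section low

variable {F : Type} [Field F] [Fintype F] {q p : ℕ}

/-- `SL_2(q)` in `PSU_3(q)`, `q ≥ 4` -/
theorem notMin_two (hF : Fintype.card F = q ^ 2) (hq4 : 4 ≤ q) (hp : p.Prime) (hp2 : p ≠ 2)
    (hd : p ∣ Nat.card (SU 2 F q)) : NotMin p (PSU 3 F q) := by
  obtain ⟨K, _, _, hK, ⟨e⟩⟩ := Cfsg.Agent.H322.Cent.su_two hF
  obtain ⟨s, hs⟩ := CharP.exists K
  have hsp : s.Prime := CharP.char_is_prime K s
  have hG : IsLieTypeChar s (ProjectiveSpecialLinearGroup (Fin 2) K) := lie_psl le_rfl (by rw [hK]; exact hq4)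
  have : Fact s.Prime := ⟨hsp⟩
  have hsim : IsSimpleGroup (ProjectiveSpecialLinearGroup (Fin 2) K) := H400.LieSimple.isSimple_of_lie hG
  rw [Cfsg.Agent.H322.Cent.card_su_two hF] at hd
  have hdK : p ∣ Nat.card (ProjectiveSpecialLinearGroup (Fin 2) K) := by
    rcases (Nat.Prime.dvd_mul hp).1 hd with h1 | h1
    · exact dvd_psl_of_dvd_q le_rfl (by rwa [hK])
    · exact dvd_psl le_rfl hp (Or.inr hp2) (k := 2) (by norm_num) le_rfl (by rwa [hK])
  refine NotMin.of_hom (nonab hsp hG) hp hdK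
    ((Cfsg.Agent.H341.ThreeElts.psuEmb hF 0 (by norm_num) : SU 2 F q →* PSU 3 F q).comp e.symm.toMonoidHom)
    (QuotientGroup.mk' _) (QuotientGroup.mk'_surjective _) ?_ ?_
  · rw [(MonoidHom.ker_eq_bot_iff _).2]
    · exact bot_le
    · exact (Cfsg.Agent.H341.ThreeElts.psuEmb_injective hF 0 (by norm_num) (by norm_num) (by norm_num)).comp e.symm.injective
  · refine not_surj hF (by norm_num) (b := 1) (M := q ^ 2 - 1) ?_ ?_ (by norm_num) _
    · rw [← Nat.card_congr e.toEquiv, Cfsg.Agent.H322.Cent.card_su_two hF, pow_one]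
    · exact coprime_pred_pow (by omega) 1

/-- `U_4(2)`, the prime 3 -/
theorem notMin_u42 (hF : Fintype.card F = 2 ^ 2) (hp : p.Prime) (hp2 : p ≠ 2)
    (hd : p ∣ Nat.card (SU 3 F 2)) : NotMin p (PSU 4 F 2) := by
  obtain ⟨s, hs⟩ := CharP.exists F
  have hsp : s.Prime := CharP.char_is_prime F s
  have hG : IsLieTypeChar s (ProjectiveSpecialLinearGroup (Fin 2) F) := lie_psl le_rfl (by rw [hF]; norm_num)
  have : Fact s.Prime := ⟨hsp⟩
  have hsim : IsSimpleGroup (ProjectiveSpecialLinearGroup (Fin 2) F) := H400.LieSimple.isSimple_of_lie hG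
  have h3 : p = 3 := by
    rw [card_SU hF (by norm_num)] at hd
    have h1 : (2 : ℕ) ^ (3 * (3 - 1) / 2) * ∏ i ∈ Finset.range (3 - 1), ph 2 (i + 1) = 2 ^ 3 * 3 ^ 3 := by decide
    rw [h1] at hd
    rcases (Nat.Prime.dvd_mul hp).1 hd with h2 | h2
    · exact absurd ((Nat.prime_dvd_prime_iff_eq hp Nat.prime_two).1 (hp.dvd_of_dvd_pow h2)) hp2
    · exact (Nat.prime_dvd_prime_iff_eq hp Nat.prime_three).1 (hp.dvd_of_dvd_pow h2)
  refine notMin_even (m := 2) hF le_rfl (nonab hsp hG) hp ?_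
  refine dvd_psl le_rfl hp (Or.inr hp2) (k := 1) le_rfl (by norm_num) ?_
  rw [h3, hF]
  norm_num

end low

/-- **`PSU_n(q)`** -/
theorem row_psu (F : Type) [Field F] [Fintype F] (n q : ℕ) (hF : Fintype.card F = q ^ 2) (hn : 3 ≤ n)
    (h32 : ¬ (n = 3 ∧ q = 2)) : RowOdd (PSU n F q) := by
  have hq := two_le hF
  obtain ⟨r, e, hr, hchar, hqr, he⟩ := exists_prime_pow hF
  have : Fact r.Prime := ⟨hr⟩
  by_cases h33 : n = 3 ∧ q = 3
  · obtain ⟨rfl, rfl⟩ := h33
    exact row_u33 (by rw [hF]; norm_num)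
  intro p hp hp2 hd
  have h4F : 4 ≤ Fintype.card F := by rw [hF]; nlinarith
  rcases dichotomy hF hn hp hd with h1 | ⟨hpq, ho, hph⟩
  · left
    by_cases hn3 : n = 3
    · subst hn3
      exact notMin_two hF (by omega) hp hp2 h1
    by_cases h42 : n = 4 ∧ q = 2
    · obtain ⟨rfl, rfl⟩ := h42
      exact notMin_u42 hF hp hp2 h1
    obtain ⟨m, rfl⟩ : ∃ m, n = m + 1 := ⟨n - 1, by omega⟩
    rw [Nat.add_sub_cancel] at h1
    have h32' : ¬ (m = 3 ∧ q = 2) := by omega
    exact notMin_block hF (by omega) h32' (nonab hr (lie_psu (r := r) hF (by omega) h32')) hp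
      (dvd_psu_of_su hF (by omega) hp h1)
  · rcases Nat.even_or_odd n with hev | hodd
    · left
      obtain ⟨m, rfl⟩ : ∃ m, n = 2 * m := hev.two_dvd
      have hG : IsLieTypeChar r (ProjectiveSpecialLinearGroup (Fin m) F) := lie_psl (by omega) h4F
      have hsim : IsSimpleGroup (ProjectiveSpecialLinearGroup (Fin m) F) := H400.LieSimple.isSimple_of_lie hG
      refine notMin_even hF (by omega) (nonab hr hG) hp ?_
      refine dvd_psl (by omega) hp (Or.inr hp2) (k := m) (by omega) le_rfl ?_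
      unfold ph at hph
      rw [if_neg (by rw [Nat.not_even_iff_odd]; exact ⟨m - 1, by omega⟩), Nat.sub_add_cancel (by omega), pow_mul] at hph
      rwa [hF]
    by_cases hprime : n.Prime
    · right
      have hdi : (p : ℤ) ∣ (-(q : ℤ)) ^ n - 1 := by
        have := (dvd_ph_iff (q := q) (by omega) p (n - 1)).2 hph
        rwa [Nat.sub_add_cancel (by omega)] at this
      have hpn : p ≠ n := ho.ne (by omega) hp hdi
      obtain ⟨x, hx, hxc⟩ := exists_top (r := r) hF hn hp hpq ho (hd.trans card_psu_dvd)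
      by_cases hnr : n = r
      · have hnq : n ∣ q := by rw [hqr, hnr]; exact dvd_pow_self r he.ne'
        have hmul : ¬ n ∣ q + 1 := by
          intro h
          have h1 := (Nat.dvd_add_right hnq).1 h
          have := Nat.le_of_dvd one_pos h1
          omega
        by_cases hn3 : n = 3
        · have he2 : 2 ≤ e := by
            by_contra h2
            have : e = 1 := by omega
            rw [this, pow_one, ← hnr] at hqr
            exact h33 ⟨hn3, hqr.trans hn3⟩
          obtain ⟨b, hb, hb2, hbd⟩ := exists_odd_dvd he2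
          have hbq : b ∣ q + 1 := by rw [hqr, ← hnr, hn3]; exact hbd
          subst hn3
          obtain ⟨y, hy, hyc⟩ := exists_diag (r := r) hF hb hb2 hbq
          have hpb : p ≠ b := by
            rintro rfl
            apply ho 1 one_pos (by norm_num)
            rw [pow_one]
            have : (-(q : ℤ)) - 1 = -((q + 1 : ℕ) : ℤ) := by push_cast; ring
            rw [this, dvd_neg, Int.natCast_dvd_natCast]
            exact hbq
          exact ⟨p, b, 2, Or.inl rfl, Or.inr (Or.inr rfl),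
            trip_of (r := r) hF hprime le_rfl h32 hp hb hpb hp2 hb2 (Or.inr hmul) hx hy hxc hyc⟩
        · have hn5 : 5 ≤ n := by
            rcases hodd with ⟨j, rfl⟩
            omega
          have hq5 : 5 ≤ q := hn5.trans (Nat.le_of_dvd (by omega) hnq)
          obtain ⟨m, rfl⟩ : ∃ m, n = m + 1 := ⟨n - 1, by omega⟩
          have hm : Even m := by
            rcases hodd with ⟨j, hj⟩
            exact ⟨j, by omega⟩
          obtain ⟨b, hb, hb2, hbq, hbo, hbd⟩ := exists_ord (q := q) (N := m) (by omega) hm (by omega)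
          have hbd' : b ∣ Nat.card (SU m F q) := by
            refine dvd_card_SU hF (by omega) (i := m - 1) (by omega) ?_
            rw [← dvd_ph_iff (by omega), Nat.sub_add_cancel (by omega)]
            exact hbd
          obtain ⟨y, hy, hyc⟩ := exists_emb (r := r) hF (by omega) hb hbq hbo hbd'
          have hpb : p ≠ b := by
            rintro rfl
            exact ho m (by omega) (by omega) hbd
          exact ⟨p, b, 2, Or.inl rfl, Or.inr (Or.inr rfl),
            trip_of (r := r) hF hprime hn h32 hp hb hpb hp2 hb2 (Or.inr hmul) hx hy hxc hyc⟩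
      · obtain ⟨y, hy, hyc⟩ := exists_cyc (r := r) hF hn hprime hnr
        exact ⟨p, n, 2, Or.inl rfl, Or.inr (Or.inr rfl),
          trip_of (r := r) hF hprime hn h32 hp hprime hpn hp2 (by omega) (Or.inl rfl) hx hy hxc hyc⟩
    · left
      obtain ⟨k, hk, hk1, hk2⟩ := Nat.exists_dvd_of_not_prime2 (n := n) (by omega) hprime
      obtain ⟨m, rfl⟩ := hk
      obtain ⟨hko, hmo⟩ := Nat.odd_mul.1 hodd
      have hk3 : 3 ≤ k := by
        rcases hko with ⟨j, rfl⟩
        omega
      have hm3 : 3 ≤ m := by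
        rcases hmo with ⟨j, rfl⟩
        rcases Nat.eq_zero_or_pos j with h | h
        · subst h
          omega
        · omega
      obtain ⟨L, _, _, _, hcard, hfin⟩ := H749.exists_ext F m (by omega)
      have : Fintype L := Fintype.ofFinite L
      have hL : Fintype.card L = (q ^ m) ^ 2 := by
        rw [← Nat.card_eq_fintype_card, hcard, Nat.card_eq_fintype_card, hF]; ring
      have hcL : CharP L r := charP_of_injective_algebraMap (algebraMap F L).injective r
      have h32' : ¬ (k = 3 ∧ q ^ m = 2) := by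
        rintro ⟨-, h⟩
        have h1 : 2 ^ 3 ≤ q ^ m := (Nat.pow_le_pow_left hq 3).trans (Nat.pow_le_pow_right (by omega) hm3)
        omega
      refine notMin_comp hF hk3 hmo hm3 hL hfin (nonab hr (lie_psu (r := r) hL hk3 h32')) hp
        (dvd_psu_of_su hL hk3 hp (dvd_card_SU hL (by omega) (i := k - 1) (by omega) ?_))
      have hev1 : Even (k * m - 1) := by
        rcases hodd with ⟨j, hj⟩
        exact ⟨j, by omega⟩
      have hev2 : Even (k - 1) := by
        rcases hko with ⟨j, hj⟩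
        exact ⟨j, by omega⟩
      unfold ph at hph ⊢
      rw [if_pos hev1, Nat.sub_add_cancel (by omega)] at hph
      rw [if_pos hev2, Nat.sub_add_cancel (by omega), ← pow_mul, mul_comm m k]
      exact hph

end Cfsg.Agent.H151.PQR
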